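import Cfsg.Agent.Lib.PGBC.Om
import Cfsg.Agent.Lib.SSClass.Model
import Cfsg.Agent.Lib.Classical.OmegaDesc

/-!
# Lower bounds for the prime graph of `PΩ_{2n+1}(q)`

Elements of prescribed orders, built from orthogonal sums of quadratic algebras and small explicit blocks.
-/

set_option autoImplicit false
set_option linter.unusedSectionVars false
set_option linter.unusedVariables false
set_option linter.style.haveILetI false

namespace Cfsg.Agent.Lib.PGBC.Lower

open Polynomial Module Matrix QuadraticMap Cfsg FiniteField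
open Cfsg.Agent.Lib.PGBC.Poly Cfsg.Agent.Lib.PGBC.Om
open Cfsg.Agent.Lib.Orth.Forms Cfsg.Agent.Lib.Orth.Bridge Cfsg.Agent.Lib.SSClass
open Cfsg.Agent.Lib.Witt.Quadratic

universe u v

section conj

variable {F : Type*} [Field F] {V V' : Type*} [AddCommGroup V] [Module F V] [AddCommGroup V'] [Module F V']

/-- Conjugation of automorphisms. -/
def conjEquiv (e : V ≃ₗ[F] V') : (V ≃ₗ[F] V) ≃* (V' ≃ₗ[F] V') where
  toFun f := e.symm.trans (f.trans e)
  invFun f := e.trans (f.trans e.symm)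
  left_inv f := by
    ext x
    simp
  right_inv f := by
    ext x
    simp
  map_mul' a b := by
    ext x
    simp [LinearEquiv.mul_apply]

theorem conjEquiv_apply (e : V ≃ₗ[F] V') (f : V ≃ₗ[F] V) (x : V') : conjEquiv e f x = e (f (e.symm x)) := rfl

theorem nondeg_comp {Q : QuadraticForm F V} (e : V ≃ₗ[F] V') (h : (polarBilin Q).Nondegenerate) :
    (polarBilin (Q.comp (e.symm : V' →ₗ[F] V))).Nondegenerate := by
  have hL : ∀ x : V', (∀ y, polar (Q.comp (e.symm : V' →ₗ[F] V)) x y = 0) → x = 0 := by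
    intro x hx
    have : e.symm x = 0 := by
      apply h.1
      intro y
      have h1 := hx (e y)
      have h2 : polar (Q.comp (e.symm : V' →ₗ[F] V)) x (e y) = polar Q (e.symm x) y := by
        simp [polar, QuadraticMap.comp_apply]
      rw [h2] at h1
      exact h1
    simpa using this
  refine ⟨fun x hx => hL x hx, fun y hy => hL y fun x => ?_⟩
  rw [polar_comm]
  exact hy x

theorem prod_pow {V₁ V₂ : Type*} [AddCommGroup V₁] [Module F V₁] [AddCommGroup V₂] [Module F V₂]
    (g₁ : V₁ ≃ₗ[F] V₁) (g₂ : V₂ ≃ₗ[F] V₂) (m : ℕ) (x : V₁ × V₂) :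
    ((g₁.prodCongr g₂) ^ m) x = ((g₁ ^ m) x.1, (g₂ ^ m) x.2) := by
  induction m generalizing x with
  | zero => rfl
  | succ m ih =>
    rw [pow_succ, LinearEquiv.mul_apply, ih, pow_succ, pow_succ]
    rfl

theorem orderOf_prodCongr {V₁ V₂ : Type*} [AddCommGroup V₁] [Module F V₁] [AddCommGroup V₂] [Module F V₂]
    (g₁ : V₁ ≃ₗ[F] V₁) (g₂ : V₂ ≃ₗ[F] V₂) :
    orderOf (g₁.prodCongr g₂) = Nat.lcm (orderOf g₁) (orderOf g₂) := by
  have key : ∀ m, (g₁.prodCongr g₂) ^ m = 1 ↔ g₁ ^ m = 1 ∧ g₂ ^ m = 1 := by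
    intro m
    constructor
    · intro h
      constructor
      · ext x
        have := congrArg (fun f => f (x, 0)) h
        simp only [prod_pow] at this
        exact congrArg Prod.fst this
      · ext x
        have := congrArg (fun f => f (0, x)) h
        simp only [prod_pow] at this
        exact congrArg Prod.snd this
    · rintro ⟨h1, h2⟩
      ext x
      · have := prod_pow g₁ g₂ m x
        rw [h1, h2] at this
        exact congrArg (fun t => t.1) this
      · have := prod_pow g₁ g₂ m x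
        rw [h1, h2] at this
        exact congrArg (fun t => t.2) this
  apply Nat.dvd_antisymm
  · apply orderOf_dvd_of_pow_eq_one
    rw [key]
    exact ⟨orderOf_dvd_iff_pow_eq_one.mp (Nat.dvd_lcm_left _ _), orderOf_dvd_iff_pow_eq_one.mp (Nat.dvd_lcm_right _ _)⟩
  · obtain ⟨h1, h2⟩ := (key _).mp (pow_orderOf_eq_one (g₁.prodCongr g₂))
    exact Nat.lcm_dvd (orderOf_dvd_of_pow_eq_one h1) (orderOf_dvd_of_pow_eq_one h2)

end conj

section blocks

variable (F : Type u) [Field F]

/-- An isometry of a nondegenerate quadratic form of dimension `2 t`, of order `N`. -/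
def HasIso (t N : ℕ) : Prop :=
  ∃ (Q : QuadraticForm F (Fin (2 * t) → F)) (g : (Fin (2 * t) → F) ≃ₗ[F] (Fin (2 * t) → F)),
    (polarBilin Q).Nondegenerate ∧ (∀ v, Q (g v) = Q v) ∧ orderOf g = N

variable {F}

theorem HasIso.of_any {t N : ℕ} {V : Type v} [AddCommGroup V] [Module F V] [FiniteDimensional F V]
    (Q : QuadraticForm F V) (g : V ≃ₗ[F] V) (hnd : (polarBilin Q).Nondegenerate) (hfin : finrank F V = 2 * t)
    (hg : ∀ v, Q (g v) = Q v) (hN : orderOf g = N) : HasIso F t N := by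
  have e : V ≃ₗ[F] (Fin (2 * t) → F) := LinearEquiv.ofFinrankEq _ _ (by rw [hfin]; simp)
  refine ⟨Q.comp (e.symm : _ →ₗ[F] V), conjEquiv e g, nondeg_comp e hnd, fun v => ?_, ?_⟩
  · simp only [QuadraticMap.comp_apply, conjEquiv_apply, LinearEquiv.coe_coe, LinearEquiv.symm_apply_apply]
    exact hg _
  · rw [MulEquiv.orderOf_eq, hN]

theorem HasIso.of_alg {t N : ℕ} {R : Type v} [CommRing R] [Algebra F R] [FiniteDimensional F R]
    {σ : R →ₐ[F] R} {τ : R →ₗ[F] F} {μ : R} (h : IsQAlg σ τ μ) (hdim : finrank F R = 2 * t) (x₀ : R)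
    (hx : x₀ * σ x₀ = 1) (hN : orderOf x₀ = N) : HasIso F t N := by
  let g : R ≃ₗ[F] R :=
    LinearEquiv.ofLinear (Algebra.lmul F R x₀) (Algebra.lmul F R (σ x₀))
      (by
        ext u
        show x₀ * (σ x₀ * u) = u
        rw [← mul_assoc, hx, one_mul])
      (by
        ext u
        show σ x₀ * (x₀ * u) = u
        rw [← mul_assoc, mul_comm (σ x₀), hx, one_mul])
  have hgp : ∀ (m : ℕ) (u : R), (g ^ m) u = x₀ ^ m * u := by
    intro m u
    induction m generalizing u with
    | zero => simp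
    | succ m ih =>
      rw [pow_succ, LinearEquiv.mul_apply, ih]
      show x₀ ^ m * (x₀ * u) = _
      rw [pow_succ, mul_assoc]
  refine HasIso.of_any (qform σ τ μ) g (qform_nondeg h) hdim (fun v => qform_lmul hx v) ?_
  rw [← hN]
  apply orderOf_eq_orderOf_iff.mpr
  intro m
  constructor
  · intro h1
    have := hgp m 1
    rw [h1, mul_one] at this
    exact this.symm
  · intro h1
    ext u
    rw [hgp, h1, one_mul]
    rfl

theorem HasIso.sum {t₁ t₂ N₁ N₂ : ℕ} (h₁ : HasIso F t₁ N₁) (h₂ : HasIso F t₂ N₂) :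
    HasIso F (t₁ + t₂) (Nat.lcm N₁ N₂) := by
  obtain ⟨Q₁, g₁, hn₁, hi₁, ho₁⟩ := h₁
  obtain ⟨Q₂, g₂, hn₂, hi₂, ho₂⟩ := h₂
  refine HasIso.of_any (Q₁.prod Q₂) (g₁.prodCongr g₂) (nondeg_prod hn₁ hn₂) ?_ ?_ ?_
  · rw [finrank_prod, Module.finrank_fin_fun, Module.finrank_fin_fun]
    ring
  · rintro ⟨x, y⟩
    show Q₁ (g₁ x) + Q₂ (g₂ y) = Q₁ x + Q₂ y
    rw [hi₁, hi₂]
  · rw [orderOf_prodCongr, ho₁, ho₂]

theorem HasIso.trivial (m : ℕ) : HasIso F m 1 := by
  refine HasIso.of_any (plusForm m F) (LinearEquiv.refl F _) (plusForm_nondeg m) ?_ (fun _ => rfl) ?_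
  · rw [Module.finrank_fintype_fun_eq_card]
    simp
    omega
  · exact orderOf_one

section three

/-- The quadratic form `x² + y z` on three coordinates. -/
def Q3 (F : Type u) [Field F] : QuadraticForm F (F × F × F) :=
  (QuadraticMap.sq (R := F)).prod (QuadraticMap.linMulLin (LinearMap.fst F F F) (LinearMap.snd F F F))

theorem Q3_apply (v : F × F × F) : Q3 F v = v.1 * v.1 + v.2.1 * v.2.2 := rfl

theorem polar_Q3 (u v : F × F × F) : polar (Q3 F) u v = 2 * u.1 * v.1 + u.2.1 * v.2.2 + u.2.2 * v.2.1 := by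
  simp only [polar, Q3_apply, Prod.fst_add, Prod.snd_add]
  ring

theorem Q3_nondeg (h2 : (2 : F) ≠ 0) : (polarBilin (Q3 F)).Nondegenerate := by
  have hL : ∀ x : F × F × F, (∀ y, polar (Q3 F) x y = 0) → x = 0 := by
    rintro ⟨a, b, c⟩ hx
    have h1 := hx (1, 0, 0)
    have h3 := hx (0, 0, 1)
    have h4 := hx (0, 1, 0)
    simp only [polar_Q3] at h1 h3 h4
    have ha : a = 0 := by
      have : 2 * a = 0 := by simpa using h1
      exact (mul_eq_zero.mp this).resolve_left h2
    have hb : b = 0 := by simpa using h3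
    have hc : c = 0 := by simpa using h4
    subst ha hb hc
    rfl
  refine ⟨fun x hx => hL x hx, fun y hy => hL y fun x => ?_⟩
  rw [polar_comm]
  exact hy x

theorem finrank_three : finrank F (F × F × F) = 3 := by
  rw [finrank_prod, finrank_prod, Module.finrank_self]

/-- The linear map underlying the unipotent element. -/
def uLin (t : F) : (F × F × F) →ₗ[F] (F × F × F) where
  toFun v := (v.1 + t * v.2.2, v.2.1 - 2 * t * v.1 - t * t * v.2.2, v.2.2)
  map_add' a b := by
    ext <;> simp <;> ring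
  map_smul' c a := by
    ext <;> simp <;> ring

theorem uLin_add (s t : F) (v : F × F × F) : uLin s (uLin t v) = uLin (s + t) v := by
  ext <;> simp [uLin] <;> ring

theorem uLin_zero (v : F × F × F) : uLin (0 : F) v = v := by
  ext <;> simp [uLin]

/-- The unipotent element. -/
def uEq (t : F) : (F × F × F) ≃ₗ[F] (F × F × F) :=
  LinearEquiv.ofLinear (uLin t) (uLin (-t))
    (by
      ext v : 1
      · ext <;> simp [uLin] <;> ring
      · ext v <;> simp [uLin] <;> ring)
    (by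
      ext v : 1
      · ext <;> simp [uLin] <;> ring
      · ext v <;> simp [uLin] <;> ring)

theorem uEq_apply (t : F) (v : F × F × F) : uEq t v = uLin t v := rfl

theorem uEq_iso (t : F) (v : F × F × F) : Q3 F (uEq t v) = Q3 F v := by
  simp only [uEq_apply, Q3_apply, uLin]
  simp only [LinearMap.coe_mk, AddHom.coe_mk]
  ring

theorem uEq_pow (t : F) (m : ℕ) (v : F × F × F) : ((uEq t) ^ m) v = uLin ((m : F) * t) v := by
  induction m generalizing v with
  | zero =>
    simp [uLin_zero]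
  | succ m ih =>
    rw [pow_succ, LinearEquiv.mul_apply, ih, uEq_apply, uLin_add]
    congr 2
    push_cast
    ring

theorem orderOf_uEq (p : ℕ) [Fact p.Prime] [CharP F p] : orderOf (uEq (1 : F)) = p := by
  have hpp : p.Prime := Fact.out
  apply orderOf_eq_prime
  · ext v
    all_goals
      rw [uEq_pow]
      simp [CharP.cast_eq_zero F p, uLin_zero]
  · intro h
    have h1 := congrArg (fun f => f ((0 : F), (0 : F), (1 : F))) h
    have h2 := congrArg Prod.fst h1
    simp only [uEq_apply, uLin] at h2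
    simp at h2

/-- The rotation. -/
def aLin (h : F) : (F × F × F) →ₗ[F] (F × F × F) where
  toFun v := (-(h * (v.2.1 + v.2.2)), v.1 + h * (v.2.1 - v.2.2), v.1 - h * (v.2.1 - v.2.2))
  map_add' a b := by
    ext <;> simp <;> ring
  map_smul' c a := by
    ext <;> simp <;> ring

theorem aLin_sq {h : F} (hh : 2 * h = 1) (v : F × F × F) : aLin h (aLin h v) = (-v.1, -v.2.2, -v.2.1) := by
  ext
  · simp only [aLin, LinearMap.coe_mk, AddHom.coe_mk]
    linear_combination (-v.1) * hh
  · simp only [aLin, LinearMap.coe_mk, AddHom.coe_mk]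
    linear_combination (h * (v.2.1 - v.2.2) - v.2.2) * hh
  · simp only [aLin, LinearMap.coe_mk, AddHom.coe_mk]
    linear_combination (-h * (v.2.1 - v.2.2) - v.2.1) * hh

theorem aLin_four {h : F} (hh : 2 * h = 1) (v : F × F × F) : aLin h (aLin h (aLin h (aLin h v))) = v := by
  rw [aLin_sq hh, aLin_sq hh]
  simp

/-- The rotation as an automorphism. -/
def aEq {h : F} (hh : 2 * h = 1) : (F × F × F) ≃ₗ[F] (F × F × F) :=
  LinearEquiv.ofLinear (aLin h) ((aLin h).comp ((aLin h).comp (aLin h)))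
    (by
      refine LinearMap.ext fun v => ?_
      exact aLin_four hh v)
    (by
      refine LinearMap.ext fun v => ?_
      exact aLin_four hh v)

theorem aEq_apply {h : F} (hh : 2 * h = 1) (v : F × F × F) : aEq hh v = aLin h v := rfl

theorem aEq_iso {h : F} (hh : 2 * h = 1) (v : F × F × F) : Q3 F (aEq hh v) = Q3 F v := by
  simp only [aEq_apply, Q3_apply, aLin, LinearMap.coe_mk, AddHom.coe_mk]
  linear_combination (v.2.1 * v.2.2 * (2 * h + 1)) * hh

theorem orderOf_aEq (h2 : (2 : F) ≠ 0) {h : F} (hh : 2 * h = 1) : orderOf (aEq hh) = 4 := by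
  have : orderOf (aEq hh) = 2 ^ (1 + 1) := by
    apply orderOf_eq_prime_pow (p := 2) (n := 1)
    · intro h1
      have h3 := congrArg (fun f => f ((1 : F), (0 : F), (0 : F))) h1
      have h4 := congrArg Prod.fst h3
      simp only [pow_one, pow_two, LinearEquiv.mul_apply, aEq_apply, aLin_sq hh] at h4
      have h5 : (-1 : F) = 1 := h4
      apply h2
      linear_combination -h5
    · ext v
      all_goals
        have e : ∀ w : F × F × F, ((aEq hh) ^ (2 ^ (1 + 1))) w = w := by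
          intro w
          have e2 : (2 ^ (1 + 1) : ℕ) = 1 + 1 + 1 + 1 := by norm_num
          rw [e2]
          simp only [pow_succ, pow_zero, one_mul, LinearEquiv.mul_apply, aEq_apply]
          exact aLin_four hh w
        rw [e]
        rfl
  rw [this]
  norm_num

end three

section torus

variable [Fintype F] (p : ℕ) [hp : Fact p.Prime] [CharP F p]

include p in
/-- Tori. -/
theorem HasIso.torus {d a : ℕ} (hd : d ≠ 0) (ha : Tor (Fintype.card F) a d) : HasIso F d a := by
  rcases ha with ha | ha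
  · haveI : NeZero d := ⟨hd⟩
    obtain ⟨y, hy0, hy⟩ := Cfsg.Agent.Lib.SLn.PrimeGraph.exists_ext_elem (F := F) p d ha
    refine HasIso.of_alg (isQAlg_swap (F := F) (Extension F p d)) ?_ ((y, y⁻¹) : Extension F p d × Extension F p d) ?_ ?_
    · rw [Module.finrank_prod, FiniteField.finrank_extension]
      omega
    · apply Prod.ext
      · exact mul_inv_cancel₀ hy0
      · exact inv_mul_cancel₀ hy0
    · have h1 : orderOf y⁻¹ = orderOf y := by
        have e1 := orderOf_units (y := Units.mk0 y hy0)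
        have e2 := orderOf_units (y := (Units.mk0 y hy0)⁻¹)
        rw [orderOf_inv, ← e1] at e2
        exact e2
      rw [Prod.orderOf]
      show Nat.lcm (orderOf y) (orderOf y⁻¹) = a
      rw [h1, hy, Nat.lcm_self]
  · classical
    haveI : NeZero (2 * d) := ⟨by omega⟩
    set q := Fintype.card F with hq
    have hq2 : 2 ≤ q := Fintype.one_lt_card
    let K := Extension F p (2 * d)
    have hcardK : Nat.card K = q ^ (2 * d) := by
      rw [FiniteField.natCard_extension, Nat.card_eq_fintype_card]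
    letI : Fintype K := Fintype.ofFinite K
    have hcardK' : Fintype.card K = q ^ (2 * d) := by rw [← Nat.card_eq_fintype_card, hcardK]
    let σ₀ : K ≃ₐ[F] K := FiniteField.frobeniusAlgEquivOfAlgebraic F K
    let σ : K ≃ₐ[F] K := σ₀ ^ d
    have hσ_apply : ∀ x, σ x = x ^ (q ^ d) := by
      intro x
      have h1 : (⇑σ) = (⇑σ₀)^[d] := AlgEquiv.coe_pow σ₀ d
      rw [h1, FiniteField.coe_frobeniusAlgEquivOfAlgebraic_iterate]
    have hσσ : ∀ x, σ (σ x) = x := by
      intro x
      rw [hσ_apply, hσ_apply, ← pow_mul, ← pow_add, ← two_mul, ← hcardK']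
      exact FiniteField.pow_card x
    have hQ1 : 1 < q ^ d := Nat.one_lt_pow hd (by omega)
    have hne : ∃ β, σ β ≠ β := by
      by_contra hc
      push Not at hc
      obtain ⟨ζ, hζ⟩ := IsCyclic.exists_ofOrder_eq_natCard (α := Kˣ)
      have h1 : (ζ : K) ^ (q ^ d) = ζ := by
        rw [← hσ_apply, hc]
      have h2 : ζ ^ (q ^ d - 1) = 1 := by
        apply Units.ext
        have h3 : (ζ : K) ^ (q ^ d - 1) * ζ = 1 * ζ := by
          rw [← pow_succ, Nat.sub_add_cancel hQ1.le, h1, one_mul]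
        have h4 := mul_right_cancel₀ ζ.ne_zero h3
        simpa using h4
      have h3 := orderOf_dvd_of_pow_eq_one h2
      rw [hζ, Nat.card_units, hcardK] at h3
      have h4 := Nat.le_of_dvd (by omega) h3
      have h5 : q ^ (2 * d) = q ^ d * q ^ d := by rw [two_mul, pow_add]
      have h6 : 2 * q ^ d ≤ q ^ d * q ^ d := Nat.mul_le_mul_right _ (by omega)
      omega
    obtain ⟨μ, hμ⟩ := isQAlg_field (F := F) K σ hσσ hne
    obtain ⟨y, hy0, hy⟩ := Cfsg.Agent.Lib.SLn.PrimeGraph.exists_ext_elem (F := F) p (2 * d)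
      (ha.trans (Cfsg.Agent.Lib.SpSpec.FormAlg.dvd_pow_two_mul_sub_one_plus F d))
    refine HasIso.of_alg hμ (FiniteField.finrank_extension F p (2 * d)) y ?_ hy
    show y * σ y = 1
    rw [hσ_apply, ← pow_succ']
    obtain ⟨c, hc⟩ := ha
    rw [hc, pow_mul, ← hy, pow_orderOf_eq_one, one_pow]

end torus

end blocks

section assemble

variable {F : Type u} [Field F] [Fintype F] {n : ℕ}

/-- Transport to the standard form. -/
theorem exists_iso_odd {V : Type v} [AddCommGroup V] [Module F V] [FiniteDimensional F V] (Q : QuadraticForm F V)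
    (hQ : (polarBilin Q).Nondegenerate) (hfin : finrank F V = 2 * n + 1) (g : V ≃ₗ[F] V) (hg : ∀ v, Q (g v) = Q v) :
    ∃ u : Cfsg.isometryGroup F (quadFormOdd n F), orderOf u = orderOf g := by
  obtain ⟨Θ, c, hc, hΘ⟩ := Cfsg.Agent.Lib.Classical.OmegaDesc.exists_equiv_odd hQ hfin
  let g' := conjEquiv Θ.symm g
  have hg' : g' ∈ isoGroup (oddForm n F) := by
    intro y
    show quadFormOdd n F (g' y) = quadFormOdd n F y
    apply mul_left_cancel₀ hc
    rw [← hΘ, ← hΘ]
    have : Θ (g' y) = g (Θ y) := by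
      show Θ (Θ.symm (g (Θ.symm.symm y))) = _
      simp
    rw [this, hg]
  let e : isoGroup (oddForm n F) := ⟨g', hg'⟩
  refine ⟨(toIso (oddForm n F)).symm e, ?_⟩
  have h1 : orderOf ((toIso (oddForm n F)).symm e) = orderOf e := MulEquiv.orderOf_eq _ e
  refine h1.trans ?_
  rw [Subgroup.orderOf_mk]
  exact MulEquiv.orderOf_eq (conjEquiv Θ.symm) g

/-- Odd order elements. -/
theorem exists_pomega_odd (h2 : (2 : F) ≠ 0) (hn : 3 ≤ n) (u : Cfsg.isometryGroup F (quadFormOdd n F))
    (hu : Odd (orderOf u)) : ∃ x : Cfsg.POmega F (quadFormOdd n F), orderOf x = orderOf u := by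
  have hQ := oddForm_nondeg n h2
  have hc : Fintype.card (II n) = 2 * n + 1 := by
    simp [II]
    omega
  have hpow : (u.1 : Matrix.GeneralLinearGroup (II n) F) ^ orderOf u = 1 := by
    have := pow_orderOf_eq_one u
    exact congrArg Subtype.val this
  have hm := Cfsg.Agent.Lib.Elusive.OmegaMem.mem_omega_of_odd (oddForm n F) hQ (by rw [hc]; omega) u.1 u.2 hu hpow
  obtain ⟨hx, hm'⟩ := (Cfsg.Agent.Lib.Elusive.OmegaMem.mem_omegaGL_iff _ _).mp hm
  let y : Cfsg.Omega F (quadFormOdd n F) := ⟨u, hm'⟩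
  refine ⟨QuotientGroup.mk y, ?_⟩
  rw [order_mk h2 hn]
  exact Subgroup.orderOf_mk u _

/-- Squares. -/
theorem exists_pomega_sq (h2 : (2 : F) ≠ 0) (hn : 3 ≤ n) (u : Cfsg.isometryGroup F (quadFormOdd n F)) {N : ℕ}
    (hu : orderOf u = 2 * N) (hN : N ≠ 0) : ∃ x : Cfsg.POmega F (quadFormOdd n F), orderOf x = N := by
  have hQ := oddForm_nondeg n h2
  have hc : Fintype.card (II n) = 2 * n + 1 := by
    simp [II]
    omega
  have hcase : Fintype.card F ≠ 2 ∨ Fintype.card (II n) ≠ 4 := by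
    rw [hc]
    omega
  have hmem : u ^ 2 ∈ Cfsg.Omega F (quadFormOdd n F) := by
    refine (Cfsg.Agent.Lib.Orth.Bridge.mem_Omega_iff (oddForm n F) hQ hcase (u ^ 2)).mpr ?_
    have hgen' := Cfsg.Agent.Lib.Orth.Bridge.hgen (oddForm n F) hQ hcase
    have hsq : ∀ a : Multiplicative (ZMod 2), a ^ 2 = 1 := by decide
    let u' : Cfsg.isometryGroup F ⇑(oddForm n F) := u
    have e : toIso (oddForm n F) (u' ^ 2) = (toIso (oddForm n F) u') ^ 2 := map_pow _ u' 2
    constructor
    · have h1 : Cfsg.Agent.Lib.Orth.Omega.rpHom hQ hgen' ((toIso (oddForm n F) u') ^ 2) = 1 := by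
        rw [map_pow]
        exact hsq _
      rw [← e] at h1
      exact h1
    · have h1 : Cfsg.Agent.Lib.Orth.Omega.snHom hQ hgen' ((toIso (oddForm n F) u') ^ 2) = 1 := by
        rw [map_pow]
        exact hsq _
      rw [← e] at h1
      exact h1
  let y : Cfsg.Omega F (quadFormOdd n F) := ⟨u ^ 2, hmem⟩
  refine ⟨QuotientGroup.mk y, ?_⟩
  rw [order_mk h2 hn]
  have e : orderOf y = orderOf (u ^ 2) := Subgroup.orderOf_mk _ _
  rw [e, orderOf_pow_of_dvd (by norm_num) (by rw [hu]; exact dvd_mul_right _ _), hu]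
  exact Nat.mul_div_cancel_left _ (by norm_num)

/-- Adding a trivial part. -/
theorem HasIso.fill (h2 : (2 : F) ≠ 0) {t N : ℕ} (ht : t ≤ n) (h : HasIso F t N) :
    ∃ u : Cfsg.isometryGroup F (quadFormOdd n F), orderOf u = N := by
  obtain ⟨Q, g, hnd, hi, ho⟩ := h
  obtain ⟨u, hu⟩ := exists_iso_odd (n := n) (Q.prod (oddForm (n - t) F)) (nondeg_prod hnd (oddForm_nondeg _ h2))
    (by
      rw [finrank_prod, Module.finrank_fin_fun, Module.finrank_fintype_fun_eq_card]
      simp
      omega)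
    (g.prodCongr (LinearEquiv.refl F _)) (by
      rintro ⟨x, y⟩
      show Q (g x) + oddForm (n - t) F y = Q x + oddForm (n - t) F y
      rw [hi])
  refine ⟨u, ?_⟩
  rw [hu, orderOf_prodCongr, ho]
  have : orderOf (LinearEquiv.refl F (Unit ⊕ (Fin (n - t) ⊕ Fin (n - t)) → F)) = 1 := orderOf_one
  rw [this, Nat.lcm_one_right]

/-- Adding a block on three coordinates. -/
theorem HasIso.fill3 (h2 : (2 : F) ≠ 0) {t N : ℕ} (ht : t + 1 ≤ n) (h : HasIso F t N) (a : (F × F × F) ≃ₗ[F] (F × F × F))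
    (ha : ∀ v, Q3 F (a v) = Q3 F v) :
    ∃ u : Cfsg.isometryGroup F (quadFormOdd n F), orderOf u = Nat.lcm N (orderOf a) := by
  have h' := h.sum (HasIso.trivial (n - 1 - t))
  rw [Nat.lcm_one_right] at h'
  have e : t + (n - 1 - t) = n - 1 := by omega
  rw [e] at h'
  obtain ⟨Q, g, hnd, hi, ho⟩ := h'
  obtain ⟨u, hu⟩ := exists_iso_odd (n := n) (Q.prod (Q3 F)) (nondeg_prod hnd (Q3_nondeg h2))
    (by
      rw [finrank_prod, Module.finrank_fin_fun, finrank_three]
      omega)
    (g.prodCongr a) (by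
      rintro ⟨x, y⟩
      show Q (g x) + Q3 F (a y) = Q x + Q3 F y
      rw [hi, ha])
  refine ⟨u, ?_⟩
  rw [hu, orderOf_prodCongr, ho]

theorem exists_half (h2 : (2 : F) ≠ 0) : ∃ h : F, 2 * h = 1 := ⟨2⁻¹, mul_inv_cancel₀ h2⟩

variable (p : ℕ) [hp : Fact p.Prime] [CharP F p]

include p in
theorem lower_oo_om (h2 : (2 : F) ≠ 0) (hn : 3 ≤ n) {r s : ℕ} (hr : r.Prime) (hs : s.Prime)
    (hr2 : r ≠ 2) (hs2 : s ≠ 2) (hrs : r ≠ s) (h : CritOO (Fintype.card F) n r s) :
    ∃ x : Cfsg.POmega F (quadFormOdd n F), orderOf x = r * s := by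
  have hrsodd : Odd (r * s) := (hr.odd_of_ne_two hr2).mul (hs.odd_of_ne_two hs2)
  have hcop : Nat.Coprime r s := (Nat.coprime_primes hr hs).mpr hrs
  have : ∃ u : Cfsg.isometryGroup F (quadFormOdd n F), orderOf u = r * s := by
    rcases h with ⟨d₁, d₂, h1, h3, hle, ht₁, ht₂⟩ | ⟨d, h1, hle, ht⟩
    · have h4 := (HasIso.torus p (by omega) ht₁).sum (HasIso.torus p (by omega) ht₂)
      rw [hcop.lcm_eq_mul] at h4
      exact h4.fill h2 hle
    · exact (HasIso.torus p (by omega) ht).fill h2 hle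
  obtain ⟨u, hu⟩ := this
  obtain ⟨x, hx⟩ := exists_pomega_odd h2 hn u (by rw [hu]; exact hrsodd)
  exact ⟨x, by rw [hx, hu]⟩

theorem lower_op_om (h2 : (2 : F) ≠ 0) (hn : 3 ≤ n) {r : ℕ} (hr : r.Prime) (hr2 : r ≠ 2) (hrp : r ≠ p)
    (h : CritOP (Fintype.card F) n r) :
    ∃ x : Cfsg.POmega F (quadFormOdd n F), orderOf x = p * r := by
  have hpp : p.Prime := hp.out
  have hp2 : p ≠ 2 := Cfsg.Agent.Lib.SpSpec.FormAlg.char_ne_two p h2
  have hcop : Nat.Coprime r p := (Nat.coprime_primes hr hpp).mpr hrp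
  obtain ⟨d, h1, hle, ht⟩ := h
  obtain ⟨u, hu⟩ := (HasIso.torus p (by omega) ht).fill3 h2 hle (uEq (1 : F)) (uEq_iso 1)
  rw [orderOf_uEq p, hcop.lcm_eq_mul] at hu
  obtain ⟨x, hx⟩ := exists_pomega_odd h2 hn u (by
    rw [hu]
    exact (hr.odd_of_ne_two hr2).mul (hpp.odd_of_ne_two hp2))
  exact ⟨x, by rw [hx, hu, mul_comm]⟩

include p in
theorem lower_to_om (h2 : (2 : F) ≠ 0) (hn : 3 ≤ n) {s : ℕ} (hs : s.Prime) (hs2 : s ≠ 2)
    (h : CritTO (Fintype.card F) n s) :
    ∃ x : Cfsg.POmega F (quadFormOdd n F), orderOf x = 2 * s := by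
  have hsodd : Odd s := hs.odd_of_ne_two hs2
  have hcop : Nat.Coprime s 4 := (Nat.Coprime.pow_left 2 (Nat.coprime_two_left.mpr hsodd)).symm
  have hs0 : 2 * s ≠ 0 := by
    have := hs.pos
    omega
  have e : 4 * s = 2 * (2 * s) := by ring
  have : ∃ u : Cfsg.isometryGroup F (quadFormOdd n F), orderOf u = 2 * (2 * s) := by
    rcases h with ⟨d, h1, hle, ht⟩ | ht
    · obtain ⟨h0, hh⟩ := exists_half h2
      obtain ⟨u, hu⟩ := (HasIso.torus p (by omega) ht).fill3 h2 hle (aEq hh) (aEq_iso hh)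
      rw [orderOf_aEq h2 hh, hcop.lcm_eq_mul, mul_comm, e] at hu
      exact ⟨u, hu⟩
    · rw [← e]
      exact (HasIso.torus p (by omega) ht).fill h2 le_rfl
  obtain ⟨u, hu⟩ := this
  exact exists_pomega_sq h2 hn u hu hs0

theorem lower_tp_om (h2 : (2 : F) ≠ 0) (hn : 3 ≤ n) :
    ∃ x : Cfsg.POmega F (quadFormOdd n F), orderOf x = 2 * p := by
  have hpp : p.Prime := hp.out
  have hp2 : p ≠ 2 := Cfsg.Agent.Lib.SpSpec.FormAlg.char_ne_two p h2
  have hpodd : Odd p := hpp.odd_of_ne_two hp2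
  have hcop : Nat.Coprime 4 p := Nat.Coprime.pow_left 2 (Nat.coprime_two_left.mpr hpodd)
  obtain ⟨h0, hh⟩ := exists_half h2
  have hI : HasIso F 3 (4 * p) := by
    refine HasIso.of_any ((Q3 F).prod (Q3 F)) ((aEq hh).prodCongr (uEq (1 : F)))
      (nondeg_prod (Q3_nondeg h2) (Q3_nondeg h2)) ?_ ?_ ?_
    · rw [finrank_prod, finrank_three]
    · rintro ⟨x, y⟩
      show Q3 F (aEq hh x) + Q3 F (uEq 1 y) = Q3 F x + Q3 F y
      rw [aEq_iso, uEq_iso]
    · rw [orderOf_prodCongr, orderOf_aEq h2 hh, orderOf_uEq p, hcop.lcm_eq_mul]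
  obtain ⟨u, hu⟩ := hI.fill h2 hn
  have e : 4 * p = 2 * (2 * p) := by ring
  rw [e] at hu
  exact exists_pomega_sq h2 hn u hu (by
    have := hpp.pos
    omega)

end assemble

end Cfsg.Agent.Lib.PGBC.Lower
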