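import Cfsg.Agent.Lib.PGBC.Upper
import Cfsg.Agent.Lib.Orth.Bridge
import Cfsg.Agent.Lib.Orth.Forms
import Cfsg.Agent.Lib.Elusive.OmegaMem
import Cfsg.Agent.Lib.Classical.QuadEichBridge
import Cfsg.Agent.Lib.BCSpec.Count
import Cfsg.Agent.Lib.MinOmega.OddFam

/-!
# Upper bounds for the prime graph of `PΩ_{2n+1}(q)`
-/

set_option autoImplicit false
set_option linter.unusedSectionVars false
set_option linter.unusedVariables false
set_option linter.style.haveILetI false

namespace Cfsg.Agent.Lib.PGBC.Om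

open Polynomial Module Matrix QuadraticMap Cfsg
open Cfsg.Agent.Lib.PGBC.Poly Cfsg.Agent.Lib.PGBC.Upper
open Cfsg.Agent.Lib.Orth.Forms Cfsg.Agent.Lib.Orth.Bridge

section forms

variable {F : Type*} [Field F] {ι : Type*} [Fintype ι] [DecidableEq ι]

theorem rec_of_form (A M : Matrix ι ι F) (hM : M.det ≠ 0) (h : A.transpose * M * A = M) : Rec A.charpoly := by
  have hdet : A.det ≠ 0 := by
    intro h0
    apply hM
    have := congrArg Matrix.det h
    rw [Matrix.det_mul, Matrix.det_mul, h0, mul_zero] at this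
    exact this.symm
  have hu : IsUnit A := (Matrix.isUnit_iff_isUnit_det A).mpr (isUnit_iff_ne_zero.mpr hdet)
  have huM : IsUnit M := (Matrix.isUnit_iff_isUnit_det M).mpr (isUnit_iff_ne_zero.mpr hM)
  have h1 : A⁻¹ = M⁻¹ * A.transpose * M := by
    apply Matrix.inv_eq_left_inv
    rw [mul_assoc, mul_assoc, ← mul_assoc A.transpose, h, Matrix.nonsing_inv_mul _ (isUnit_iff_ne_zero.mpr hM)]
  have h2 : (A⁻¹).charpoly = A.charpoly := by
    rw [h1]
    obtain ⟨u, hu'⟩ := huM
    have h3 := Matrix.charpoly_units_conj u⁻¹ A.transpose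
    have h4 : (((u⁻¹ : (Matrix ι ι F)ˣ) : Matrix ι ι F)) = M⁻¹ := by
      rw [← hu']
      exact (Matrix.inv_eq_left_inv u.inv_val).symm
    have h5 : ((u⁻¹ : (Matrix ι ι F)ˣ)⁻¹ : (Matrix ι ι F)ˣ).val = M := by
      rw [inv_inv, hu']
    rw [h4, Matrix.nonsing_inv_nonsing_inv M (isUnit_iff_ne_zero.mpr hM)] at h3
    rw [h3, Matrix.charpoly_transpose]
  have h3 := Matrix.charpoly_inv A hu
  rw [h2, ← Matrix.reverse_charpoly, Ring.inverse_eq_inv'] at h3
  refine ⟨?_, (-1) ^ Fintype.card ι * A.det⁻¹, mul_ne_zero (pow_ne_zero _ (by simp)) (inv_ne_zero hdet), ?_⟩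
  · intro h0
    apply hdet
    rw [Matrix.det_eq_sign_charpoly_coeff, h0, mul_zero]
  · have h5 : ((-1 : F[X]) ^ Fintype.card ι * C A.det⁻¹) = C ((-1) ^ Fintype.card ι * A.det⁻¹) := by simp
    rw [← h5]
    exact h3

end forms

variable {F : Type*} [Field F] [Fintype F]

/-- The matrix of an element of `Ω`. -/
abbrev mat {ι : Type} [Fintype ι] [DecidableEq ι] {Q : (ι → F) → F} (y : Cfsg.Omega F Q) : Matrix ι ι F :=
  (((y : Cfsg.isometryGroup F Q) : Matrix.GeneralLinearGroup ι F) : Matrix ι ι F)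

theorem mat_pow {ι : Type} [Fintype ι] [DecidableEq ι] {Q : (ι → F) → F} (y : Cfsg.Omega F Q) (m : ℕ) :
    mat y ^ m = mat (y ^ m) := by
  simp [mat]

theorem mat_pow_eq_one {ι : Type} [Fintype ι] [DecidableEq ι] {Q : (ι → F) → F} (y : Cfsg.Omega F Q) (m : ℕ) :
    mat y ^ m = 1 ↔ y ^ m = 1 := by
  rw [mat_pow]
  constructor
  · intro h
    apply Subtype.ext
    apply Subtype.ext
    apply Units.ext
    exact h
  · intro h
    rw [h]
    rfl

variable {n : ℕ}

/-- The index type. -/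
abbrev II (n : ℕ) : Type := Unit ⊕ (Fin n ⊕ Fin n)

theorem rec_mat (h2 : (2 : F) ≠ 0) (y : Cfsg.isometryGroup F (quadFormOdd n F)) :
    Rec (((y : Matrix.GeneralLinearGroup (II n) F) : Matrix (II n) (II n) F)).charpoly := by
  set A : Matrix (II n) (II n) F := ((y : Matrix.GeneralLinearGroup (II n) F) : Matrix (II n) (II n) F) with hA
  apply rec_of_form A (oddMat n F)
  · rw [Matrix.det_fromBlocks_zero₂₁, Cfsg.Agent.Lib.Orth.Gram.det_hyp]
    refine mul_ne_zero ?_ (pow_ne_zero _ (by simp))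
    simpa [Matrix.det_unique] using h2
  · have hiso : ∀ v, quadFormOdd n F (A *ᵥ v) = quadFormOdd n F v := (mem_isometryGroup_iff _ _).mp y.2
    have hpol : ∀ u v, polar (quadFormOdd n F) (A *ᵥ u) (A *ᵥ v) = polar (quadFormOdd n F) u v := by
      intro u v
      unfold polar
      rw [← Matrix.mulVec_add, hiso, hiso, hiso]
    apply Matrix.mulVec_injective
    funext v
    apply dotProduct_eq
    intro u
    rw [dotProduct_comm, dotProduct_comm _ u, ← polar_quadFormOdd, ← hpol, polar_quadFormOdd,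
      ← Matrix.mulVec_mulVec, ← Matrix.mulVec_mulVec, Matrix.dotProduct_mulVec u, Matrix.vecMul_transpose]

/-- The centre of `Ω` is trivial in odd dimension. -/
theorem center_bot (h2 : (2 : F) ≠ 0) (hn : 3 ≤ n) : Subgroup.center (Cfsg.Omega F (quadFormOdd n F)) = ⊥ := by
  apply Subgroup.eq_bot_of_card_eq
  have hc : Fintype.card (II n) = 2 * n + 1 := by
    simp [II]
    omega
  exact Cfsg.Agent.Lib.Classical.QuadEichBridge.card_center_of_not_neg (oddForm n F) (oddForm_nondeg n h2)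
    (by rw [hc]; omega)
    (Cfsg.Agent.Lib.Classical.QuadEichBridge.not_neg_of_odd_card _ h2 (by rw [hc]; exact odd_two_mul_add_one n))

/-- Lifting an element of `PΩ` to `Ω`. -/
theorem exists_lift_om (h2 : (2 : F) ≠ 0) (hn : 3 ≤ n) (x : Cfsg.POmega F (quadFormOdd n F)) :
    ∃ y : Cfsg.Omega F (quadFormOdd n F), orderOf y = orderOf x := by
  obtain ⟨y, rfl⟩ := QuotientGroup.mk_surjective x
  refine ⟨y, ?_⟩
  have hb := center_bot h2 hn (F := F)
  apply orderOf_eq_orderOf_iff.mpr
  intro m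
  rw [← QuotientGroup.mk_pow, QuotientGroup.eq_one_iff, hb, Subgroup.mem_bot]

/-- Pushing an element of `Ω` to `PΩ`. -/
theorem order_mk (h2 : (2 : F) ≠ 0) (hn : 3 ≤ n) (y : Cfsg.Omega F (quadFormOdd n F)) :
    orderOf (QuotientGroup.mk y : Cfsg.POmega F (quadFormOdd n F)) = orderOf y := by
  have hb := center_bot h2 hn (F := F)
  apply orderOf_eq_orderOf_iff.mpr
  intro m
  rw [← QuotientGroup.mk_pow, QuotientGroup.eq_one_iff, hb, Subgroup.mem_bot]

/-- The action on the level sets. -/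
noncomputable def lvl (κ : F) : Cfsg.isometryGroup F (quadFormOdd n F) →* Equiv.Perm {v : II n → F // quadFormOdd n F v = κ} where
  toFun g :=
    { toFun := fun v => ⟨((g : Matrix.GeneralLinearGroup (II n) F) : Matrix (II n) (II n) F) *ᵥ v.1, by
        rw [(mem_isometryGroup_iff _ _).mp g.2]
        exact v.2⟩
      invFun := fun v => ⟨((g⁻¹ : Cfsg.isometryGroup F (quadFormOdd n F)) : Matrix.GeneralLinearGroup (II n) F).val *ᵥ v.1, by
        rw [(mem_isometryGroup_iff _ _).mp (g⁻¹).2]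
        exact v.2⟩
      left_inv := fun v => Subtype.ext (by
        show ((g⁻¹ : Cfsg.isometryGroup F (quadFormOdd n F)) : Matrix.GeneralLinearGroup (II n) F).val *ᵥ
          (((g : Matrix.GeneralLinearGroup (II n) F) : Matrix (II n) (II n) F) *ᵥ v.1) = v.1
        rw [Matrix.mulVec_mulVec]
        have : ((g⁻¹ : Cfsg.isometryGroup F (quadFormOdd n F)) : Matrix.GeneralLinearGroup (II n) F).val *
            ((g : Matrix.GeneralLinearGroup (II n) F) : Matrix (II n) (II n) F) = 1 := by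
          have h3 := congrArg (fun t : Cfsg.isometryGroup F (quadFormOdd n F) => ((t : Matrix.GeneralLinearGroup (II n) F) : Matrix (II n) (II n) F)) (inv_mul_cancel g)
          exact h3
        rw [this, Matrix.one_mulVec])
      right_inv := fun v => Subtype.ext (by
        show ((g : Matrix.GeneralLinearGroup (II n) F) : Matrix (II n) (II n) F) *ᵥ
          (((g⁻¹ : Cfsg.isometryGroup F (quadFormOdd n F)) : Matrix.GeneralLinearGroup (II n) F).val *ᵥ v.1) = v.1
        rw [Matrix.mulVec_mulVec]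
        have : ((g : Matrix.GeneralLinearGroup (II n) F) : Matrix (II n) (II n) F) *
            ((g⁻¹ : Cfsg.isometryGroup F (quadFormOdd n F)) : Matrix.GeneralLinearGroup (II n) F).val = 1 := by
          have h3 := congrArg (fun t : Cfsg.isometryGroup F (quadFormOdd n F) => ((t : Matrix.GeneralLinearGroup (II n) F) : Matrix (II n) (II n) F)) (mul_inv_cancel g)
          exact h3
        rw [this, Matrix.one_mulVec]) }
  map_one' := by
    ext v
    · show ((1 : Matrix (II n) (II n) F) *ᵥ v.1) _ = _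
      rw [Matrix.one_mulVec]
      rfl
  map_mul' a b := by
    ext v i
    show ((((a * b : Cfsg.isometryGroup F (quadFormOdd n F)) : Matrix.GeneralLinearGroup (II n) F) : Matrix (II n) (II n) F) *ᵥ v.1) i =
      (((a : Matrix.GeneralLinearGroup (II n) F) : Matrix (II n) (II n) F) *ᵥ
        (((b : Matrix.GeneralLinearGroup (II n) F) : Matrix (II n) (II n) F) *ᵥ v.1)) i
    rw [Matrix.mulVec_mulVec]
    rfl

theorem lvl_apply (κ : F) (g : Cfsg.isometryGroup F (quadFormOdd n F)) (v : {v : II n → F // quadFormOdd n F v = κ}) :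
    (lvl κ g v : II n → F) = ((g : Matrix.GeneralLinearGroup (II n) F) : Matrix (II n) (II n) F) *ᵥ v.1 := rfl

theorem smul_odd (c : F) (v : II n → F) : quadFormOdd n F (c • v) = c * c * quadFormOdd n F v := by
  have := (oddForm n F).map_smul c v
  simpa using this

/-- A level avoiding a line. -/
theorem exists_level (h2 : (2 : F) ≠ 0) (S : Submodule F (II n → F)) (hS : finrank F S ≤ 1) :
    ∃ κ : F, κ ≠ 0 ∧ ∀ v ∈ S, quadFormOdd n F v ≠ κ := by
  obtain ⟨v₀, hv₀⟩ := finrank_le_one_iff.mp hS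
  have hring : ringChar F ≠ 2 := by
    intro h
    apply h2
    have : CharP F 2 := by
      rw [← h]
      exact ringChar.charP F
    exact_mod_cast CharP.cast_eq_zero F 2
  obtain ⟨δ, hδ⟩ := FiniteField.exists_nonsquare hring
  have hall : ∀ v ∈ S, ∃ c : F, quadFormOdd n F v = c * c * quadFormOdd n F v₀.1 := by
    intro v hv
    obtain ⟨c, hc⟩ := hv₀ ⟨v, hv⟩
    refine ⟨c, ?_⟩
    have h5 : c • v₀.1 = v := congrArg Subtype.val hc
    rw [← h5]
    exact smul_odd c v₀.1
  by_cases ha : quadFormOdd n F v₀.1 = 0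
  · refine ⟨1, one_ne_zero, fun v hv h => ?_⟩
    obtain ⟨c, hc⟩ := hall v hv
    rw [h, ha, mul_zero] at hc
    exact one_ne_zero hc
  · have hδ0 : δ ≠ 0 := by
      rintro rfl
      exact hδ ⟨0, by simp⟩
    refine ⟨quadFormOdd n F v₀.1 * δ, mul_ne_zero ha hδ0, fun v hv h => ?_⟩
    obtain ⟨c, hc⟩ := hall v hv
    rw [h] at hc
    apply hδ
    refine ⟨c, ?_⟩
    apply mul_left_cancel₀ ha
    rw [hc]
    ring

omit [Fintype F] in
theorem finrank_fix [Fintype F] {ι : Type*} [Fintype ι] [DecidableEq ι] (A : Matrix ι ι F)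
    (h : A.charpoly.rootMultiplicity 1 = 1) :
    finrank F (LinearMap.ker (Matrix.toLin' A - (1 : Module.End F (ι → F)))) ≤ 1 := by
  have h1 := LinearMap.finrank_maxGenEigenspace_eq (Matrix.toLin' A : Module.End F (ι → F)) 1
  rw [Matrix.charpoly_toLin', h] at h1
  rw [← h1]
  apply Submodule.finrank_mono
  intro v hv
  rw [Module.End.mem_maxGenEigenspace]
  refine ⟨1, ?_⟩
  rw [pow_one, one_smul]
  exact hv

/-- Counting the squares. -/
theorem card_sq (h2 : (2 : F) ≠ 0) (κ : F) (hκ : κ ≠ 0) :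
    Nat.card {x : F // x ^ 2 = κ} = 0 ∨ Nat.card {x : F // x ^ 2 = κ} = 2 := by
  classical
  by_cases h : ∃ b : F, b ^ 2 = κ
  · right
    obtain ⟨b, hb⟩ := h
    have hb0 : b ≠ 0 := by
      rintro rfl
      apply hκ
      rw [← hb]
      simp
    have hne : b ≠ -b := by
      intro h3
      have : 2 * b = 0 := by linear_combination h3
      exact (mul_ne_zero h2 hb0) this
    have e : {x : F // x ^ 2 = κ} ≃ ({b, -b} : Finset F) :=
      { toFun := fun x => ⟨x.1, by
          have h3 : (x.1 - b) * (x.1 + b) = 0 := by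
            linear_combination x.2 - hb
          rcases mul_eq_zero.mp h3 with h4 | h4
          · simp [sub_eq_zero.mp h4]
          · simp [eq_neg_of_add_eq_zero_left h4]⟩
        invFun := fun x => ⟨x.1, by
          have h3 := x.2
          simp only [Finset.mem_insert, Finset.mem_singleton] at h3
          rcases h3 with h3 | h3 <;> rw [h3]
          · exact hb
          · rw [neg_sq]; exact hb⟩
        left_inv := fun x => rfl
        right_inv := fun x => rfl }
    rw [Nat.card_congr e, Nat.card_eq_fintype_card, Fintype.card_coe, Finset.card_pair hne]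
  · left
    have : IsEmpty {x : F // x ^ 2 = κ} := ⟨fun x => h ⟨x.1, x.2⟩⟩
    exact Nat.card_of_isEmpty

/-- The sizes of the levels. -/
theorem card_level (h2 : (2 : F) ≠ 0) (hn : 1 ≤ n) (κ : F) (hκ : κ ≠ 0) :
    Nat.card {v : II n → F // quadFormOdd n F v = κ} = Fintype.card F ^ n * (Fintype.card F ^ n - 1) ∨
      Nat.card {v : II n → F // quadFormOdd n F v = κ} = Fintype.card F ^ n * (Fintype.card F ^ n + 1) := by
  obtain ⟨a, ha⟩ : ∃ a, Fintype.card F = a + 1 := ⟨Fintype.card F - 1, by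
    have := Fintype.card_pos (α := F)
    omega⟩
  have h1 := Cfsg.Agent.Lib.MinOmega.odd_level ha n κ
  rw [ha]
  set Q := (a + 1) ^ n with hQ
  have hQ1 : 1 ≤ Q := Nat.one_le_pow _ _ (by omega)
  have e : (a + 1) * ((Q - 1) * (a + 1) ^ (n - 1)) = Q * (Q - 1) := by
    have : Q = (a + 1) * (a + 1) ^ (n - 1) := by
      rw [hQ, ← pow_succ']
      congr 1
      omega
    nth_rewrite 2 [this]
    ring
  rw [e] at h1
  rcases card_sq h2 κ hκ with h | h
  · left
    rw [h1, h, zero_mul, zero_add]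
  · right
    rw [h1, h]
    obtain ⟨b, hb⟩ : ∃ b, Q = b + 1 := ⟨Q - 1, by omega⟩
    rw [hb]
    simp only [Nat.add_sub_cancel]
    ring

/-- A permutation of prime order power: points which move have full orbits. -/
theorem free_of_prime {α : Type*} {τ : Equiv.Perm α} {s : ℕ} (hs : s.Prime) (hτ : τ ^ s = 1) (x : α) (hx : τ x ≠ x)
    (k : ℕ) (hk : (τ ^ k) x = x) : s ∣ k := by
  by_contra hn
  have hc : Nat.Coprime k s := ((hs.coprime_iff_not_dvd).mpr hn).symm
  obtain ⟨m, -, hm⟩ := Nat.exists_mul_mod_eq_one_of_coprime hc hs.one_lt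
  apply hx
  have h1 : τ ^ (k * m) = τ := by
    rw [← Nat.div_add_mod (k * m) s, hm, pow_add, pow_mul, hτ, one_pow, one_mul, pow_one]
  rw [← h1, pow_mul]
  exact Equiv.Perm.pow_apply_eq_self_of_apply_eq_self hk m

variable (p : ℕ) [hp : Fact p.Prime] [CharP F p]

include p in
theorem cast_ne_zero_of_ne {u : ℕ} (hu : u.Prime) (hup : u ≠ p) : (u : F) ≠ 0 := by
  have hpp : p.Prime := hp.out
  rw [Ne, CharP.cast_eq_zero_iff F p]
  intro h
  exact hup ((Nat.prime_dvd_prime_iff_eq hpp hu).mp h).symm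

include p in
theorem coprime_card_pow {u : ℕ} (hu : u.Prime) (hup : u ≠ p) (m : ℕ) : Nat.Coprime u (Fintype.card F ^ m) := by
  have hpp : p.Prime := hp.out
  obtain ⟨f, hf, hq⟩ := Cfsg.Agent.Lib.SLn.PrimeGraph.card_eq (F := F) p
  rw [hq, ← pow_mul]
  apply Nat.Coprime.pow_right
  exact (Nat.coprime_primes hu hpp).mpr hup

/-- The prime two and an odd prime: upper bound for `Ω`. -/
theorem upper_to_omega (h2 : (2 : F) ≠ 0) (hn : 3 ≤ n) (y : Cfsg.Omega F (quadFormOdd n F)) {s : ℕ} (hs : s.Prime)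
    (hs2 : s ≠ 2) (hsp : s ≠ p) (hy : orderOf y = 2 * s) : CritTO (Fintype.card F) n s := by
  classical
  have hpp : p.Prime := hp.out
  have hp2 : p ≠ 2 := Cfsg.Agent.Lib.SpSpec.FormAlg.char_ne_two p h2
  have hsodd : Odd s := hs.odd_of_ne_two hs2
  have hs3 : 3 ≤ s := by
    have := hs.two_le
    omega
  have hsF : (s : F) ≠ 0 := cast_ne_zero_of_ne p hs hsp
  set A : Matrix (II n) (II n) F := mat y with hAdef
  have hA : A ^ (2 * s) = 1 := by
    rw [hAdef, mat_pow_eq_one, ← hy, pow_orderOf_eq_one]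
  have hAs : A ^ s ≠ 1 := by
    rw [hAdef, Ne, mat_pow_eq_one]
    intro h
    have h3 := orderOf_dvd_of_pow_eq_one h
    rw [hy] at h3
    have := Nat.le_of_dvd hs.pos h3
    omega
  have hA2 : A ^ 2 ≠ 1 := by
    rw [hAdef, Ne, mat_pow_eq_one]
    intro h
    have h3 := orderOf_dvd_of_pow_eq_one h
    rw [hy] at h3
    have := Nat.le_of_dvd (by norm_num) h3
    omega
  have hcard : Fintype.card (II n) = 2 * n + 1 := by
    simp [II]
    omega
  have hdet : ¬ IsUnit (A - 1) := by
    intro hu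
    have h3 := Cfsg.Agent.Lib.Elusive.OmegaMem.even_rank_of_mem_omega (oddForm n F) (oddForm_nondeg n h2)
      (by rw [hcard]; omega) (y.1.1) ((Cfsg.Agent.Lib.Elusive.OmegaMem.mem_omegaGL_iff _ _).mpr ⟨y.1.2, y.2⟩)
    change Even (A - 1).rank at h3
    rw [Matrix.rank_of_isUnit _ hu, hcard] at h3
    exact (Nat.not_even_iff_odd.mpr (odd_two_mul_add_one n)) h3
  rcases upper_to_om p A (rec_mat h2 y.1) hcard hs hs2 hsF hA hAs hA2 hdet with h | ⟨H1, H2, H3, hn1, M, hM, hsM⟩
  · exact Or.inl h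
  right
  obtain ⟨κ, hκ0, hκ⟩ := exists_level h2 _ (finrank_fix A H3)
  have hfix : ∀ v : II n → F, A *ᵥ v = v → quadFormOdd n F v ≠ κ := by
    intro v hv
    apply hκ
    rw [LinearMap.mem_ker]
    show A *ᵥ v - v = 0
    rw [hv, sub_self]
  -- fixed points
  have hA1 : ∀ v : II n → F, (A - 1) *ᵥ v = 0 → A *ᵥ v = v := by
    intro v hv
    rw [Matrix.sub_mulVec, Matrix.one_mulVec] at hv
    exact sub_eq_zero.mp hv
  have hfixs : ∀ v : II n → F, (A ^ s) *ᵥ v = v → quadFormOdd n F v ≠ κ := by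
    intro v hv
    apply hfix
    apply hA1
    have hc : Commute (A ^ s + 1) (A - 1) := by
      apply Commute.add_left
      · exact ((Commute.refl A).pow_left s).sub_right (Commute.one_right _)
      · exact Commute.one_left _
    have h3 : (A - 1) * (A ^ s + 1) = 0 := by
      rw [← hc.eq]
      exact H1
    have h4 := congrArg (fun T => T *ᵥ v) h3
    simp only [Matrix.zero_mulVec] at h4
    rw [← Matrix.mulVec_mulVec, Matrix.add_mulVec, hv, Matrix.one_mulVec, Matrix.mulVec_add] at h4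
    have h5 : (2 : F) • ((A - 1) *ᵥ v) = 0 := by
      rw [two_smul]
      exact h4
    exact (smul_eq_zero.mp h5).resolve_left h2
  have hfix2 : ∀ v : II n → F, (A ^ 2) *ᵥ v = v → quadFormOdd n F v ≠ κ := by
    intro v hv
    apply hfix
    apply hA1
    have hc : Commute (∑ i ∈ Finset.range s, (A ^ 2) ^ i) (A - 1) := by
      apply Commute.sum_left
      intro i _
      exact (((Commute.refl A).pow_left 2).pow_left i).sub_right (Commute.one_right _)
    have h3 : (A - 1) * (∑ i ∈ Finset.range s, (A ^ 2) ^ i) = 0 := by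
      rw [← hc.eq]
      exact H2
    have hpw : ∀ i : ℕ, ((A ^ 2) ^ i) *ᵥ v = v := by
      intro i
      induction i with
      | zero => simp
      | succ i ih => rw [pow_succ, ← Matrix.mulVec_mulVec, hv, ih]
    have hsum : (∑ i ∈ Finset.range s, (A ^ 2) ^ i) *ᵥ v = (s : F) • v := by
      rw [Matrix.sum_mulVec]
      simp only [hpw, Finset.sum_const, Finset.card_range]
      rw [Nat.cast_smul_eq_nsmul]
    have h4 := congrArg (fun T => T *ᵥ v) h3
    simp only [Matrix.zero_mulVec] at h4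
    rw [← Matrix.mulVec_mulVec, hsum, Matrix.mulVec_smul] at h4
    exact (smul_eq_zero.mp h4).resolve_left hsF
  -- the level set
  let Y := {v : II n → F // quadFormOdd n F v = κ}
  letI : Fintype Y := Fintype.ofFinite Y
  have hlvlA : ∀ (m : ℕ) (v : Y), ((lvl κ ((y : Cfsg.isometryGroup F (quadFormOdd n F)) ^ m)) v : II n → F) = (A ^ m) *ᵥ v.1 := by
    intro m v
    rw [lvl_apply]
    rw [mat_pow]
    rfl
  -- the involution
  set σ : Equiv.Perm Y := lvl κ ((y : Cfsg.isometryGroup F (quadFormOdd n F)) ^ s) with hσ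
  have hsig : Equiv.Perm.sign σ = 1 := by
    have h3 := Cfsg.Agent.Lib.Orth.Omega.commutator_le_ker ((Equiv.Perm.sign).comp (lvl κ : _ →* Equiv.Perm Y))
    have h4 : (y : Cfsg.isometryGroup F (quadFormOdd n F)) ^ s ∈ commutator (Cfsg.isometryGroup F (quadFormOdd n F)) :=
      Subgroup.pow_mem _ y.2 s
    exact h3 h4
  have hyg : (y : Cfsg.isometryGroup F (quadFormOdd n F)) ^ (2 * s) = 1 := by
    have h3 : y ^ (2 * s) = 1 := by rw [← hy, pow_orderOf_eq_one]
    exact congrArg Subtype.val h3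
  have hσ2 : σ ^ 2 = 1 := by
    rw [hσ, ← map_pow, ← pow_mul, mul_comm, hyg, map_one]
  have hσm : ∀ v : Y, σ v ≠ v := by
    intro v h3
    apply hfixs v.1 _ v.2
    have := congrArg Subtype.val h3
    rw [hσ, hlvlA] at this
    exact this
  obtain ⟨c, hc1, hc2⟩ := Cfsg.Agent.Lib.BCSpec.Count.sign_of_free (σ := σ) (ℓ := 2) hσ2 (by
    intro x hx k hk
    by_contra hodd
    obtain ⟨j, hj⟩ := Nat.not_even_iff_odd.mp (fun h => hodd h.two_dvd)
    apply hx
    rw [hj, pow_succ, pow_mul, hσ2, one_pow, one_mul] at hk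
    exact hk)
  have hsupp : ∀ {β : Equiv.Perm Y}, (∀ v, β v ≠ v) → β.support = Finset.univ := by
    intro β hβ
    ext v
    simp [Equiv.Perm.mem_support, hβ v]
  rw [hsupp hσm, Finset.card_univ] at hc1
  have hceven : Even c := by
    rw [hsig] at hc2
    by_contra hcodd
    rw [Nat.not_even_iff_odd] at hcodd
    have h5 : Odd (c * 2 + c) := (even_two.mul_left c).add_odd hcodd
    rw [h5.neg_one_pow] at hc2
    exact absurd hc2 (by decide)
  have h4Y : 4 ∣ Fintype.card Y := by
    obtain ⟨d, hd⟩ := hceven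
    rw [hc1, hd]
    exact ⟨d, by ring⟩
  -- the element of order `s`
  set τ : Equiv.Perm Y := lvl κ ((y : Cfsg.isometryGroup F (quadFormOdd n F)) ^ 2) with hτ
  have hτs : τ ^ s = 1 := by
    rw [hτ, ← map_pow, ← pow_mul, hyg, map_one]
  have hτm : ∀ v : Y, τ v ≠ v := by
    intro v h3
    apply hfix2 v.1 _ v.2
    have := congrArg Subtype.val h3
    rw [hτ, hlvlA] at this
    exact this
  obtain ⟨c', hc'1, -⟩ := Cfsg.Agent.Lib.BCSpec.Count.sign_of_free (σ := τ) (ℓ := s) hτs (free_of_prime hs hτs)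
  rw [hsupp hτm, Finset.card_univ] at hc'1
  have hsY : s ∣ Fintype.card Y := ⟨c', by rw [hc'1]; ring⟩
  have hc4s : Nat.Coprime 4 s := Nat.Coprime.pow_left 2 (Nat.coprime_two_left.mpr hsodd)
  have h4sY := hc4s.mul_dvd_of_dvd_of_dvd h4Y hsY
  have hcq : Nat.Coprime (4 * s) (Fintype.card F ^ n) := by
    apply Nat.Coprime.mul_left
    · exact Nat.Coprime.pow_left 2 (Nat.coprime_two_left.mpr (Cfsg.Agent.Lib.SpSpec.FormAlg.odd_card h2).pow)
    · exact coprime_card_pow p hs hsp n
  rw [← Nat.card_eq_fintype_card] at h4sY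
  rcases card_level h2 hn1 κ hκ0 with h | h
  · left
    rw [h] at h4sY
    exact hcq.dvd_of_dvd_mul_left h4sY
  · right
    rw [h] at h4sY
    exact hcq.dvd_of_dvd_mul_left h4sY

/-- Two odd primes: upper bound for `Ω`. -/
theorem upper_oo_omega (h2 : (2 : F) ≠ 0) (y : Cfsg.Omega F (quadFormOdd n F)) {r s : ℕ} (hr : r.Prime) (hs : s.Prime)
    (hr2 : r ≠ 2) (hs2 : s ≠ 2) (hrp : r ≠ p) (hsp : s ≠ p) (hrs : r ≠ s) (hy : orderOf y = r * s) :
    CritOO (Fintype.card F) n r s := by
  have hA : mat y ^ (r * s) = 1 := by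
    rw [mat_pow_eq_one, ← hy, pow_orderOf_eq_one]
  have hAr : mat y ^ r ≠ 1 := by
    rw [Ne, mat_pow_eq_one]
    intro h
    have h3 := orderOf_dvd_of_pow_eq_one h
    rw [hy] at h3
    have := Nat.le_of_dvd hr.pos h3
    have h4 := hs.two_le
    have h5 := hr.pos
    nlinarith
  have hAs : mat y ^ s ≠ 1 := by
    rw [Ne, mat_pow_eq_one]
    intro h
    have h3 := orderOf_dvd_of_pow_eq_one h
    rw [hy] at h3
    have := Nat.le_of_dvd hs.pos h3
    have h4 := hr.two_le
    have h5 := hs.pos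
    nlinarith
  have hcard : Fintype.card (II n) = 2 * n + 1 := by
    simp [II]
    omega
  exact upper_oo p (mat y) (rec_mat h2 y.1) hcard.le hr hs hr2 hs2 (cast_ne_zero_of_ne p hr hrp)
    (cast_ne_zero_of_ne p hs hsp) hrs hA hAr hAs

/-- An odd prime and the characteristic: upper bound for `Ω`. -/
theorem upper_op_omega (h2 : (2 : F) ≠ 0) (hn : 1 ≤ n) (y : Cfsg.Omega F (quadFormOdd n F)) {r : ℕ} (hr : r.Prime)
    (hr2 : r ≠ 2) (hrp : r ≠ p) (hy : orderOf y = p * r) :
    CritOP (Fintype.card F) n r := by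
  have hpp : p.Prime := hp.out
  have hA : mat y ^ (p * r) = 1 := by
    rw [mat_pow_eq_one, ← hy, pow_orderOf_eq_one]
  have hAp : mat y ^ p ≠ 1 := by
    rw [Ne, mat_pow_eq_one]
    intro h
    have h3 := orderOf_dvd_of_pow_eq_one h
    rw [hy] at h3
    have := Nat.le_of_dvd hpp.pos h3
    have h4 := hr.two_le
    have h5 := hpp.pos
    nlinarith
  have hAr : mat y ^ r ≠ 1 := by
    rw [Ne, mat_pow_eq_one]
    intro h
    have h3 := orderOf_dvd_of_pow_eq_one h
    rw [hy] at h3
    have := Nat.le_of_dvd hr.pos h3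
    have h4 := hpp.two_le
    have h5 := hr.pos
    nlinarith
  have hcard : Fintype.card (II n) = 2 * n + 1 := by
    simp [II]
    omega
  exact upper_op p (Cfsg.Agent.Lib.SpSpec.FormAlg.char_ne_two p h2) (mat y) (rec_mat h2 y.1) hn (Or.inr hcard) hr hr2
    (cast_ne_zero_of_ne p hr hrp) hA hAp hAr

end Cfsg.Agent.Lib.PGBC.Om
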