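import Cfsg.Agent.Lib.SpSpec.Graph

/-!
# Atoms of self-reciprocal polynomials

The polynomial side of the prime graph comparison of `PΩ_{2n+1}(q)` and `PSp_{2n}(q)`.
-/

set_option autoImplicit false
set_option linter.unusedSectionVars false
set_option linter.unusedVariables false

namespace Cfsg.Agent.Lib.PGBC.Poly

open Polynomial Module
open Cfsg.Agent.Lib.SpSpec.Recip Cfsg.Agent.Lib.SpSpec.Graph

/-- The torus condition. -/
def Tor (q a d : ℕ) : Prop := a ∣ q ^ d - 1 ∨ a ∣ q ^ d + 1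

/-- Two odd primes different from the characteristic. -/
def CritOO (q n r s : ℕ) : Prop :=
  (∃ d₁ d₂, 1 ≤ d₁ ∧ 1 ≤ d₂ ∧ d₁ + d₂ ≤ n ∧ Tor q r d₁ ∧ Tor q s d₂) ∨
    (∃ d, 1 ≤ d ∧ d ≤ n ∧ Tor q (r * s) d)

/-- An odd prime and the characteristic. -/
def CritOP (q n r : ℕ) : Prop := ∃ d, 1 ≤ d ∧ d + 1 ≤ n ∧ Tor q r d

/-- The prime two and an odd prime different from the characteristic. -/
def CritTO (q n s : ℕ) : Prop := (∃ d, 1 ≤ d ∧ d + 1 ≤ n ∧ Tor q s d) ∨ Tor q (4 * s) n

variable {F : Type*} [Field F]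

/-- Self-reciprocal up to a scalar. -/
def RecD (D : F[X]) : Prop := ∃ c : F, c ≠ 0 ∧ D = C c * D.reverse

/-- Self-reciprocal with nonzero constant term. -/
def Rec (χ : F[X]) : Prop := χ.coeff 0 ≠ 0 ∧ RecD χ

theorem pstar_dvd_of_rec {π D : F[X]} (h0 : π.coeff 0 ≠ 0) (hD : RecD D) (hd : π ∣ D) : pstar π ∣ D := by
  obtain ⟨c, hc, hD⟩ := hD
  obtain ⟨Q, hQ⟩ := hd
  rw [hD, hQ, reverse_mul_of_domain, reverse_eq_C_mul_pstar h0]
  exact ⟨C c * C (π.coeff 0) * Q.reverse, by ring⟩

section finite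

variable [Fintype F] (p : ℕ) [Fact p.Prime] [CharP F p]

theorem recD_X_pow_sub_one {M : ℕ} (hM : 1 ≤ M) : RecD (X ^ M - 1 : F[X]) := by
  refine ⟨-1, by simp, ?_⟩
  have h := Lib.SUSpec.Dag.reverse_X_pow_sub_C (F := F) hM 1
  rw [C_1] at h
  rw [h]
  simp

theorem recD_X_pow_add_one {M : ℕ} (hM : 1 ≤ M) : RecD (X ^ M + 1 : F[X]) := by
  refine ⟨1, by simp, ?_⟩
  have h := Lib.SUSpec.Dag.reverse_X_pow_sub_C (F := F) hM (-1)
  have e : (X ^ M - C (-1) : F[X]) = X ^ M + 1 := by simp
  rw [e] at h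
  rw [h]
  simp
  ring

theorem recD_geom {a b : ℕ} (ha : 1 ≤ a) (hb : 1 ≤ b) : RecD (∑ i ∈ Finset.range b, (X ^ a : F[X]) ^ i) := by
  refine ⟨1, by simp, ?_⟩
  rw [C_1, one_mul]
  have h2 := mul_geom_sum (X ^ a : F[X]) b
  have h3 := congrArg reverse h2
  rw [reverse_mul_of_domain] at h3
  have h4 := Lib.SUSpec.Dag.reverse_X_pow_sub_C (F := F) ha 1
  have h5 := Lib.SUSpec.Dag.reverse_X_pow_sub_C (F := F) (M := a * b) (Nat.mul_pos ha hb) 1
  rw [C_1] at h4 h5
  rw [← pow_mul, h5, h4, one_mul, one_mul] at h3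
  have h6 := mul_neg_geom_sum (X ^ a : F[X]) b
  rw [← pow_mul] at h6
  rw [← h6] at h3
  have h7 : (1 - X ^ a : F[X]) ≠ 0 := by
    intro h
    have h8 : (X ^ a : F[X]) = 1 := (sub_eq_zero.mp h).symm
    have := congrArg natDegree h8
    simp at this
    omega
  exact (mul_left_cancel₀ h7 h3).symm

/-- An atom of `χ` containing `π`. -/
structure Atom (π χ G : F[X]) (d M : ℕ) : Prop where
  monic : G.Monic
  dvd : G ∣ χ
  deg : G.natDegree = 2 * d
  pos : 1 ≤ d
  pi_dvd : π ∣ G
  M_eq : M = Fintype.card F ^ d - 1 ∨ M = Fintype.card F ^ d + 1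
  dvdM : G ∣ X ^ M - 1
  univ : ∀ D : F[X], RecD D → π ∣ D → G ∣ D
  recG : RecD G

include p in
theorem exists_atom {χ π : F[X]} (hχ : Rec χ) (hπ : Irreducible π) (hm : π.Monic) (hd : π ∣ χ)
    (hne : ¬ π ∣ X ^ 2 - 1) : ∃ G d M, Atom π χ G d M := by
  have h0 : π.coeff 0 ≠ 0 := by
    intro h
    have h1 : (X : F[X]) ∣ χ := (X_dvd_iff.mpr h).trans hd
    exact hχ.1 (X_dvd_iff.mp h1)
  have hdpos := hπ.natDegree_pos
  by_cases hself : pstar π = π
  · have hd1 : π.natDegree ≠ 1 := fun h => hne (pstar_deg_one hm hself h)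
    obtain ⟨t, ht, ht1, hdvd⟩ := selfrec_dvd p hπ hm h0 hself (by omega)
    refine ⟨π, t, Fintype.card F ^ t + 1, hm, hd, ht, ht1, dvd_rfl, Or.inr rfl, hdvd, fun _ _ h => h, ?_⟩
    refine ⟨(π.coeff 0)⁻¹, inv_ne_zero h0, ?_⟩
    exact hself.symm
  · have hπ' := pstar_irreducible hπ h0
    have hm' := pstar_monic h0
    have hd' := pstar_natDegree h0
    have hnassoc : ¬ Associated π (pstar π) := fun h =>
      hself (eq_of_monic_of_associated hm hm' h).symm
    have hcop : IsCoprime π (pstar π) := by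
      rw [hπ.coprime_iff_not_dvd]
      intro h
      exact hnassoc ((hπ.dvd_irreducible_iff_associated hπ').mp h)
    have hq2 : 2 ≤ Fintype.card F := Fintype.one_lt_card
    have hq1 : 1 < Fintype.card F ^ π.natDegree := Nat.one_lt_pow (by omega) (by omega)
    have hM1 : 1 ≤ Fintype.card F ^ π.natDegree - 1 := by omega
    have h1 : π ∣ X ^ (Fintype.card F ^ π.natDegree - 1) - 1 := by
      haveI : Fact (Irreducible π) := ⟨hπ⟩
      rw [← AdjoinRoot.mk_eq_zero, map_sub, map_pow, AdjoinRoot.mk_X, map_one, sub_eq_zero]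
      apply pow_card_sub_one hπ
      intro h
      apply not_dvd_X hπ h0
      rw [← AdjoinRoot.mk_eq_zero, AdjoinRoot.mk_X]
      exact h
    refine ⟨π * pstar π, π.natDegree, Fintype.card F ^ π.natDegree - 1, hm.mul hm', ?_, ?_, by omega,
      dvd_mul_right _ _, Or.inl rfl, ?_, ?_, ?_⟩
    · exact hcop.mul_dvd hd (pstar_dvd_of_rec h0 hχ.2 hd)
    · rw [hm.natDegree_mul hm', hd']
      ring
    · exact hcop.mul_dvd h1 (pstar_dvd_of_rec h0 (recD_X_pow_sub_one hM1) h1)
    · intro D hD h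
      exact hcop.mul_dvd h (pstar_dvd_of_rec h0 hD h)
    · refine ⟨1, by simp, ?_⟩
      rw [C_1, one_mul, reverse_mul_of_domain, reverse_pstar h0, reverse_eq_C_mul_pstar h0]
      have : (C (π.coeff 0) * C (π.coeff 0)⁻¹ : F[X]) = 1 := by
        rw [← C_mul, mul_inv_cancel₀ h0, C_1]
      linear_combination (-(pstar π * π)) * this

variable {ι : Type*} [Fintype ι] [DecidableEq ι]

/-- An annihilating polynomial is divisible by each irreducible factor of the characteristic polynomial. -/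
theorem dvd_of_annih (A : Matrix ι ι F) {π P : F[X]} (hπ : Irreducible π) (hd : π ∣ A.charpoly)
    (hP : aeval A P = 0) : π ∣ P := by
  classical
  haveI : Fact (Irreducible π) := ⟨hπ⟩
  let K := AdjoinRoot π
  let θ : K := AdjoinRoot.root π
  let φ : Matrix ι ι F →ₐ[F] Matrix ι ι K := AlgHom.mapMatrix (Algebra.ofId F K)
  have hφ : φ A = A.map (algebraMap F K) := rfl
  have hχ : (A.map (algebraMap F K)).charpoly = A.charpoly.map (algebraMap F K) := by
    rw [Matrix.charpoly_map]
  have hroot : (A.map (algebraMap F K)).charpoly.eval θ = 0 := by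
    rw [hχ]
    obtain ⟨g, hg⟩ := hd
    rw [hg, Polynomial.map_mul, eval_mul]
    have : eval θ (π.map (algebraMap F K)) = 0 := by
      rw [eval_map_algebraMap]
      simp only [θ]
      rw [AdjoinRoot.aeval_eq, AdjoinRoot.mk_self]
    rw [this, zero_mul]
  rw [Matrix.eval_charpoly] at hroot
  obtain ⟨v, hv0, hv⟩ := Matrix.exists_mulVec_eq_zero_iff.mpr hroot
  have hAv : (A.map (algebraMap F K)).mulVec v = θ • v := by
    have h1 : (Matrix.scalar ι θ - A.map (algebraMap F K)).mulVec v = θ • v - (A.map (algebraMap F K)).mulVec v := by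
      rw [Matrix.sub_mulVec, Matrix.scalar_apply]
      congr 1
      funext i
      simp [Matrix.mulVec_diagonal]
    rw [h1] at hv
    exact (sub_eq_zero.mp hv).symm
  have hall : ∀ f : F[X], (φ (aeval A f)).mulVec v = (aeval θ f) • v := by
    intro f
    induction f using Polynomial.induction_on' with
    | add f g hf hg =>
      rw [map_add, map_add, map_add, Matrix.add_mulVec, hf, hg, add_smul]
    | monomial n a =>
      have e1 : aeval A (monomial n a) = a • A ^ n := by
        rw [aeval_monomial, Algebra.smul_def]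
      have e2 : aeval θ (monomial n a) = algebraMap F K a * θ ^ n := by
        rw [aeval_monomial]
      have hpow : ∀ m : ℕ, ((A.map (algebraMap F K)) ^ m).mulVec v = θ ^ m • v := by
        intro m
        induction m with
        | zero => simp
        | succ m ih =>
          rw [pow_succ, ← Matrix.mulVec_mulVec, hAv, Matrix.mulVec_smul, ih, smul_smul, pow_succ, mul_comm]
      rw [e1, e2, map_smul, map_pow, hφ, Matrix.smul_mulVec, hpow, mul_smul, algebraMap_smul]
  have h3 := hall P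
  rw [hP, map_zero, Matrix.zero_mulVec] at h3
  have h4 : aeval θ P = 0 := by
    by_contra hne
    have := smul_eq_zero.mp h3.symm
    rcases this with h | h
    · exact hne h
    · exact hv0 h
  rw [← AdjoinRoot.mk_eq_zero]
  rw [AdjoinRoot.aeval_eq] at h4
  exact h4

/-- A divisor of `P` which contains the characteristic polynomial gives an annihilator. -/
theorem aeval_eq_zero_of_dvd (A : Matrix ι ι F) {P : F[X]} (h : A.charpoly ∣ P) : aeval A P = 0 := by
  obtain ⟨g, rfl⟩ := h
  rw [map_mul, Matrix.aeval_self_charpoly, zero_mul]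

/-- Deduce a power identity. -/
theorem pow_eq_one_of_dvd (A : Matrix ι ι F) {M : ℕ} (h : A.charpoly ∣ X ^ M - 1) : A ^ M = 1 := by
  have := aeval_eq_zero_of_dvd A h
  rw [map_sub, map_pow, aeval_X, map_one] at this
  exact sub_eq_zero.mp this

theorem pow_eq_neg_one_of_dvd (A : Matrix ι ι F) {M : ℕ} (h : A.charpoly ∣ X ^ M + 1) : A ^ M = -1 := by
  have := aeval_eq_zero_of_dvd A h
  rw [map_add, map_pow, aeval_X, map_one] at this
  exact eq_neg_of_add_eq_zero_left this

end finite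

end Cfsg.Agent.Lib.PGBC.Poly
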