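import Cfsg.Agent.Lib.PGBC.Upper

/-!
# The prime graph of `PSp_{2n}(q)` in terms of the numerical criteria
-/

set_option autoImplicit false
set_option linter.unusedSectionVars false
set_option linter.unusedVariables false
set_option linter.style.haveILetI false

namespace Cfsg.Agent.Lib.PGBC.Sp

open Polynomial Module Matrix Cfsg FiniteField
open Cfsg.Agent.Lib.PGBC.Poly Cfsg.Agent.Lib.PGBC.Upper
open Cfsg.Agent.Lib.SpSpec.Recip Cfsg.Agent.Lib.SpSpec.FormAlg Cfsg.Agent.Lib.SpSpec.Structure
open Cfsg.Agent.Lib.SpSpec.Graph Cfsg.Agent.Lib.Classical.SympForm Cfsg.Agent.Lib.Classical.SympSimple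
open Cfsg.Agent.Lib.SLn.PrimeGraph

variable {F : Type*} [Field F] [Fintype F] {n : ℕ}

theorem rec_sp (X : Matrix.symplecticGroup (Fin n) F) :
    Rec (X : Matrix (Fin n ⊕ Fin n) (Fin n ⊕ Fin n) F).charpoly :=
  ⟨coeff_charpoly_ne X, charpoly_eq_reverse X⟩

theorem card_index : Fintype.card (Fin n ⊕ Fin n) = 2 * n := by
  simp
  omega

variable (p : ℕ) [hp : Fact p.Prime] [CharP F p]

include p in
theorem cast_ne {u : ℕ} (hu : u.Prime) (hup : u ≠ p) : (u : F) ≠ 0 := by
  have hpp : p.Prime := hp.out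
  rw [Ne, CharP.cast_eq_zero_iff F p]
  intro h
  exact hup ((Nat.prime_dvd_prime_iff_eq hpp hu).mp h).symm

/-- Two odd primes. -/
theorem upper_oo_sp (hn : 1 ≤ n) (x : Cfsg.PSp n F) {r s : ℕ} (hr : r.Prime) (hs : s.Prime)
    (hr2 : r ≠ 2) (hs2 : s ≠ 2) (hrp : r ≠ p) (hsp : s ≠ p) (hrs : r ≠ s) (hx : orderOf x = r * s) :
    CritOO (Fintype.card F) n r s := by
  have hodd : Odd (r * s) := (hr.odd_of_ne_two hr2).mul (hs.odd_of_ne_two hs2)
  obtain ⟨X, hXx, hXo⟩ := exists_lift hn (Or.inl (by rw [hx]; exact hodd))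
  rw [hx] at hXo
  set A : Matrix (Fin n ⊕ Fin n) (Fin n ⊕ Fin n) F := X.1 with hAdef
  have hA : A ^ (r * s) = 1 := congrArg Subtype.val hXo
  have hne : ∀ j, ¬ r * s ∣ j → A ^ j ≠ 1 := by
    intro j hj h1
    apply hj
    rw [← hx, ← hXx]
    apply orderOf_dvd_of_pow_eq_one
    rw [← QuotientGroup.mk_pow]
    have h2 : X ^ j = 1 := Subtype.ext h1
    rw [h2]
    rfl
  have hAs : A ^ s ≠ 1 := by
    apply hne
    intro h
    have h1 := Nat.le_of_dvd hs.pos h
    have h2 := hr.two_le
    have h3 := hs.pos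
    nlinarith
  have hAr : A ^ r ≠ 1 := by
    apply hne
    intro h
    have h1 := Nat.le_of_dvd hr.pos h
    have h2 := hs.two_le
    have h3 := hr.pos
    nlinarith
  exact upper_oo p A (rec_sp X) (by rw [card_index]; omega) hr hs hr2 hs2 (cast_ne p hr hrp) (cast_ne p hs hsp) hrs
    hA hAr hAs

/-- An odd prime and the characteristic. -/
theorem upper_op_sp (hp2 : p ≠ 2) (hn : 1 ≤ n) (x : Cfsg.PSp n F) {r : ℕ} (hr : r.Prime)
    (hr2 : r ≠ 2) (hrp : r ≠ p) (hx : orderOf x = p * r) :
    CritOP (Fintype.card F) n r := by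
  have hpp : p.Prime := hp.out
  have hodd : Odd (p * r) := (hpp.odd_of_ne_two hp2).mul (hr.odd_of_ne_two hr2)
  obtain ⟨X, hXx, hXo⟩ := exists_lift hn (Or.inl (by rw [hx]; exact hodd))
  rw [hx] at hXo
  set A : Matrix (Fin n ⊕ Fin n) (Fin n ⊕ Fin n) F := X.1 with hAdef
  have hA : A ^ (p * r) = 1 := congrArg Subtype.val hXo
  have hne : ∀ j, ¬ p * r ∣ j → A ^ j ≠ 1 := by
    intro j hj h1
    apply hj
    rw [← hx, ← hXx]
    apply orderOf_dvd_of_pow_eq_one
    rw [← QuotientGroup.mk_pow]
    have h2 : X ^ j = 1 := Subtype.ext h1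
    rw [h2]
    rfl
  have hAp : A ^ p ≠ 1 := by
    apply hne
    intro h
    have h1 := Nat.le_of_dvd hpp.pos h
    have h2 := hr.two_le
    have h3 := hpp.pos
    nlinarith
  have hAr : A ^ r ≠ 1 := by
    apply hne
    intro h
    have h1 := Nat.le_of_dvd hr.pos h
    have h2 := hpp.two_le
    have h3 := hr.pos
    nlinarith
  exact upper_op p hp2 A (rec_sp X) hn (Or.inl card_index) hr hr2 (cast_ne p hr hrp) hA hAp hAr

/-- The prime two and an odd prime. -/
theorem upper_to_sp' (h2 : (2 : F) ≠ 0) (hn : 1 ≤ n) (x : Cfsg.PSp n F) {s : ℕ} (hs : s.Prime)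
    (hs2 : s ≠ 2) (hsp : s ≠ p) (hx : orderOf x = 2 * s) :
    CritTO (Fintype.card F) n s := by
  obtain ⟨X, rfl⟩ := QuotientGroup.mk_surjective x
  set A : Matrix (Fin n ⊕ Fin n) (Fin n ⊕ Fin n) F := X.1 with hAdef
  have hnegv : ((negOne n F : Matrix.symplecticGroup (Fin n) F) : Matrix (Fin n ⊕ Fin n) (Fin n ⊕ Fin n) F) = -1 := rfl
  have key : ∀ j, (QuotientGroup.mk X : Cfsg.PSp n F) ^ j = 1 ↔ A ^ j = 1 ∨ A ^ j = -1 := by
    intro j
    rw [← QuotientGroup.mk_pow, QuotientGroup.eq_one_iff, mem_center_symplecticGroup_iff hn]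
    constructor
    · rintro (h | h)
      · left
        have := congrArg Subtype.val h
        exact this
      · right
        have := congrArg Subtype.val h
        rw [hnegv] at this
        exact this
    · rintro (h | h)
      · left
        exact Subtype.ext h
      · right
        apply Subtype.ext
        rw [hnegv]
        exact h
  have hpow : A ^ (2 * s) = 1 ∨ A ^ (2 * s) = -1 := (key _).mp (by rw [← hx, pow_orderOf_eq_one])
  have hne : ∀ j, A ^ j = 1 ∨ A ^ j = -1 → 2 * s ∣ j := by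
    intro j hj
    rw [← hx]
    exact orderOf_dvd_of_pow_eq_one ((key j).mpr hj)
  exact upper_to_sp p h2 A (rec_sp X) card_index hs hs2 (cast_ne p hs hsp) hpow hne

section lower

include p in
/-- The torus from the numerical condition. -/
theorem torus_tor {d a : ℕ} (hd : d ≠ 0) (ha : Tor (Fintype.card F) a d) {C : Prop}
    (H : ∀ (S : Type) [CommRing S] [Algebra F S] [Module.Finite F S] (σ : S →ₐ[F] S) (τ : S →ₗ[F] F),
      IsFormAlg σ τ → finrank F S = 2 * d → ∀ s : S, s * σ s = 1 → orderOf s = a → C) : C := by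
  rcases ha with ha | ha
  · exact torus_minus (F := F) p hd ha H
  · exact torus_plus (F := F) p hd ha H

include p in
theorem lower_oo_sp (hn : 1 ≤ n) {r s : ℕ} (hr : r.Prime) (hs : s.Prime)
    (hr2 : r ≠ 2) (hs2 : s ≠ 2) (hrs : r ≠ s) (h : CritOO (Fintype.card F) n r s) :
    ∃ g : Cfsg.PSp n F, orderOf g = r * s := by
  have hrodd : Odd r := hr.odd_of_ne_two hr2
  have hsodd : Odd s := hs.odd_of_ne_two hs2
  have hrsodd : Odd (r * s) := hrodd.mul hsodd
  have hcop : Nat.Coprime r s := (Nat.coprime_primes hr hs).mpr hrs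
  rcases h with ⟨d₁, d₂, h1, h2, hle, ht₁, ht₂⟩ | ⟨d, h1, hle, ht⟩
  · refine torus_tor (F := F) p (by omega : d₁ ≠ 0) ht₁ ?_
    intro S₁ _ _ _ σ₁ τ₁ hf₁ hd₁ s₁ hs₁ ho₁
    refine torus_tor (F := F) p (by omega : d₂ ≠ 0) ht₂ ?_
    intro S₂ _ _ _ σ₂ τ₂ hf₂ hd₂ s₂ hs₂ ho₂
    have hdim : finrank F (S₁ × S₂) = 2 * (d₁ + d₂) := by
      rw [Module.finrank_prod, hd₁, hd₂]
      ring
    exact exists_psp_rest (hf₁.prod hf₂) hn hle hdim ((s₁, s₂) : S₁ × S₂) (by
        apply Prod.ext
        · exact hs₁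
        · exact hs₂) (r * s) (by
        apply Prod.ext
        · change s₁ ^ (r * s) = 1
          rw [pow_mul, ← ho₁, pow_orderOf_eq_one, one_pow]
        · change s₂ ^ (r * s) = 1
          rw [mul_comm, pow_mul, ← ho₂, pow_orderOf_eq_one, one_pow]) (by
        intro m hm
        have h1 : s₁ ^ m = 1 ∨ s₁ ^ m = -1 := by
          rcases hm with hm | hm
          · exact Or.inl (congrArg Prod.fst hm)
          · exact Or.inr (congrArg Prod.fst hm)
        have h2 : s₂ ^ m = 1 ∨ s₂ ^ m = -1 := by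
          rcases hm with hm | hm
          · exact Or.inl (congrArg Prod.snd hm)
          · exact Or.inr (congrArg Prod.snd hm)
        exact hcop.mul_dvd_of_dvd_of_dvd (dvd_of_pow_eq_pm hrodd ho₁ h1) (dvd_of_pow_eq_pm hsodd ho₂ h2))
  · refine torus_tor (F := F) p (by omega : d ≠ 0) ht ?_
    intro S _ _ _ σ τ hf hd s₀ hs₀ ho
    exact exists_psp_rest hf hn hle hd s₀ hs₀ (r * s) (by
      rw [← ho]
      exact pow_orderOf_eq_one s₀) (fun m hm => dvd_of_pow_eq_pm hrsodd ho hm)

theorem lower_op_sp (hn : 1 ≤ n) {r : ℕ} (hr : r.Prime) (hr2 : r ≠ 2) (hrp : r ≠ p) (h : CritOP (Fintype.card F) n r) :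
    ∃ g : Cfsg.PSp n F, orderOf g = p * r := by
  have hpp : p.Prime := hp.out
  have hrodd : Odd r := hr.odd_of_ne_two hr2
  have hcop : Nat.Coprime r p := (Nat.coprime_primes hr hpp).mpr hrp
  obtain ⟨d, h1, hle, ht⟩ := h
  refine torus_tor (F := F) p (by omega : d ≠ 0) ht ?_
  intro S _ _ _ σ τ hform hdim s hs hso
  have hform2 := hform.prod (formAlg_dual (F := F))
  have hdim2 : finrank F (S × Dual F) = 2 * (d + 1) := by
    rw [Module.finrank_prod, hdim, Lib.SLn.PrimeGraph.finrank_dual]
    ring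
  exact exists_psp_rest hform2 hn hle hdim2
    ((s, u1) : S × Dual F) (by
      apply Prod.ext
      · exact hs
      · exact u1_sigma) (p * r) (by
      apply Prod.ext
      · change s ^ (p * r) = 1
        rw [mul_comm, pow_mul, ← hso, pow_orderOf_eq_one, one_pow]
      · change (u1 : Dual F) ^ (p * r) = 1
        apply Lib.SLn.PrimeGraph.u1_pow_eq_one
        rw [Nat.cast_mul, CharP.cast_eq_zero F p, zero_mul]) (by
      intro m hm
      have h1 : s ^ m = 1 ∨ s ^ m = -1 := by
        rcases hm with hm | hm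
        · exact Or.inl (congrArg Prod.fst hm)
        · exact Or.inr (congrArg Prod.fst hm)
      have h2 : (u1 : Dual F) ^ m = 1 ∨ (u1 : Dual F) ^ m = -1 := by
        rcases hm with hm | hm
        · exact Or.inl (congrArg Prod.snd hm)
        · exact Or.inr (congrArg Prod.snd hm)
      have h3 := dvd_of_pow_eq_pm hrodd hso h1
      have h4 : p ∣ m := (CharP.cast_eq_zero_iff F p m).mp (u1_pow_cases h2)
      have := hcop.symm.mul_dvd_of_dvd_of_dvd h4 h3
      exact this)

omit hp [CharP F p] in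
/-- An element `(-s, 1)`. -/
theorem exists_psp_neg (h2 : (2 : F) ≠ 0) {S : Type*} [CommRing S] [Algebra F S] [Module.Finite F S] {σ : S →ₐ[F] S}
    {τ : S →ₗ[F] F} (h : IsFormAlg σ τ) {t : ℕ} (ht : t + 1 ≤ n) (hdim : finrank F S = 2 * t)
    (hS : (-1 : S) ≠ 1) (s₀ : S) (hs : s₀ * σ s₀ = 1) {a : ℕ} (ha : Odd a) (hsa : s₀ ^ a = 1)
    (hmin : ∀ m, s₀ ^ m = 1 ∨ s₀ ^ m = -1 → a ∣ m) :
    ∃ g : Cfsg.PSp n F, orderOf g = 2 * a := by
  obtain ⟨k, hk⟩ : ∃ k, n - t = k + 1 := ⟨n - t - 1, by omega⟩
  have hform := h.prod (formAlg_rest (F := F) (k + 1))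
  have hdim2 : finrank F (S × ((Fin (k + 1) → F) × (Fin (k + 1) → F))) = 2 * n := by
    rw [Module.finrank_prod, Module.finrank_prod, hdim, Module.finrank_fin_fun]
    omega
  have hrest : (-1 : (Fin (k + 1) → F) × (Fin (k + 1) → F)) ≠ 1 := by
    intro h3
    have h4 := congrFun (congrArg Prod.fst h3) 0
    have h5 : (-1 : F) = 1 := h4
    apply h2
    linear_combination -h5
  refine exists_psp_order (by omega) hform hdim2 ((-s₀, 1) : S × ((Fin (k + 1) → F) × (Fin (k + 1) → F))) ?_
    (2 * a) ?_ ?_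
  · apply Prod.ext
    · change -s₀ * σ (-s₀) = 1
      rw [map_neg, neg_mul_neg]
      exact hs
    · exact mul_one _
  · left
    apply Prod.ext
    · change (-s₀) ^ (2 * a) = 1
      rw [pow_mul, neg_sq, ← pow_mul, mul_comm, pow_mul, hsa, one_pow]
    · exact one_pow _
  · intro m hm
    have h3 : (-s₀) ^ m = 1 := by
      rcases hm with hm | hm
      · exact congrArg Prod.fst hm
      · exfalso
        have h4 := congrArg Prod.snd hm
        have h5 : (1 : (Fin (k + 1) → F) × (Fin (k + 1) → F)) ^ m = -1 := h4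
        rw [one_pow] at h5
        exact hrest h5.symm
    rcases Nat.even_or_odd m with he | ho
    · have h4 : s₀ ^ m = 1 := by
        rw [← h3, he.neg_pow]
      have h5 := hmin m (Or.inl h4)
      have hc : Nat.Coprime 2 a := Nat.coprime_two_left.mpr ha
      exact hc.mul_dvd_of_dvd_of_dvd he.two_dvd h5
    · exfalso
      have h4 : s₀ ^ m = -1 := by
        have := ho.neg_pow s₀
        rw [h3] at this
        linear_combination this
      have h5 := hmin m (Or.inr h4)
      obtain ⟨j, hj⟩ := h5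
      rw [hj, pow_mul, hsa, one_pow] at h4
      exact hS h4.symm

include p in
theorem lower_to_sp (h2 : (2 : F) ≠ 0) (hn : 1 ≤ n) {s : ℕ} (hs : s.Prime) (hs2 : s ≠ 2)
    (h : CritTO (Fintype.card F) n s) :
    ∃ g : Cfsg.PSp n F, orderOf g = 2 * s := by
  have hsodd : Odd s := hs.odd_of_ne_two hs2
  rcases h with ⟨d, h1, hle, ht⟩ | ht
  · refine torus_tor (F := F) p (by omega : d ≠ 0) ht ?_
    intro S _ _ _ σ τ hf hd s₀ hs₀ ho
    have hnt : Nontrivial S := Module.nontrivial_of_finrank_pos (R := F) (by omega)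
    have hS : (-1 : S) ≠ 1 := by
      intro h3
      have h4 : (2 : S) = 0 := by linear_combination -h3
      have h5 : (2 : F) • (1 : S) = 0 := by
        rw [Algebra.smul_def, map_ofNat, h4, zero_mul]
      exact one_ne_zero ((smul_eq_zero.mp h5).resolve_left h2)
    exact exists_psp_neg h2 hf hle hd hS s₀ hs₀ hsodd (by rw [← ho]; exact pow_orderOf_eq_one s₀)
      (fun m hm => dvd_of_pow_eq_pm hsodd ho hm)
  · have hn0 : n ≠ 0 := by omega
    rcases ht with ht | ht
    · -- split
      haveI : NeZero n := ⟨hn0⟩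
      have hform := formAlg_swap (F := F) (Extension F p n)
      obtain ⟨y, hy0, hy⟩ := Lib.SLn.PrimeGraph.exists_ext_elem (F := F) p n ht
      have hdim : finrank F (Extension F p n × Extension F p n) = 2 * n := by
        rw [Module.finrank_prod, FiniteField.finrank_extension]
        omega
      have hy2 : y ^ (2 * s) = -1 := by
        have h3 : y ^ (2 * s) * y ^ (2 * s) = 1 := by
          rw [← pow_add, ← two_mul, ← mul_assoc]
          norm_num
          rw [← hy, pow_orderOf_eq_one]
        rcases mul_self_eq_one_iff.mp h3 with h4 | h4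
        · exfalso
          have h5 := orderOf_dvd_of_pow_eq_one h4
          rw [hy] at h5
          have := Nat.le_of_dvd (by have := hs.pos; omega) h5
          have := hs.pos
          omega
        · exact h4
      refine exists_psp_order hn hform hdim ((y, y⁻¹) : Extension F p n × Extension F p n) ?_ (2 * s) ?_ ?_
      · apply Prod.ext
        · exact mul_inv_cancel₀ hy0
        · exact inv_mul_cancel₀ hy0
      · right
        apply Prod.ext
        · exact hy2
        · change (y⁻¹) ^ (2 * s) = -1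
          rw [inv_pow, hy2]
          norm_num
      · intro m hm
        have h3 : y ^ m = 1 ∨ y ^ m = -1 := by
          rcases hm with hm | hm
          · exact Or.inl (congrArg Prod.fst hm)
          · exact Or.inr (congrArg Prod.fst hm)
        have h4 : y ^ (2 * m) = 1 := by
          rw [mul_comm 2 m, pow_mul]
          rcases h3 with h3 | h3 <;> rw [h3] <;> simp
        have h5 := orderOf_dvd_of_pow_eq_one h4
        rw [hy] at h5
        have h6 : 2 * (2 * s) ∣ 2 * m := by
          have : 2 * (2 * s) = 4 * s := by ring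
          rw [this]
          exact h5
        exact Nat.dvd_of_mul_dvd_mul_left (by norm_num) h6
    · -- nonsplit
      haveI : NeZero (2 * n) := ⟨by omega⟩
      obtain ⟨σ, τ, hform, hσ⟩ := exists_form_ext (F := F) p n hn0
      obtain ⟨y, hy0, hy⟩ := Lib.SLn.PrimeGraph.exists_ext_elem (F := F) p (2 * n)
        (ht.trans (dvd_pow_two_mul_sub_one_plus F n))
      have hy2 : y ^ (2 * s) = -1 := by
        have h3 : y ^ (2 * s) * y ^ (2 * s) = 1 := by
          rw [← pow_add, ← two_mul, ← mul_assoc]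
          norm_num
          rw [← hy, pow_orderOf_eq_one]
        rcases mul_self_eq_one_iff.mp h3 with h4 | h4
        · exfalso
          have h5 := orderOf_dvd_of_pow_eq_one h4
          rw [hy] at h5
          have := Nat.le_of_dvd (by have := hs.pos; omega) h5
          have := hs.pos
          omega
        · exact h4
      refine exists_psp_order hn hform (FiniteField.finrank_extension F p (2 * n)) y ?_ (2 * s) (Or.inr hy2) ?_
      · rw [hσ, ← pow_succ']
        obtain ⟨c, hc⟩ := ht
        rw [hc, pow_mul, ← hy, pow_orderOf_eq_one, one_pow]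
      · intro m hm
        have h4 : y ^ (2 * m) = 1 := by
          rw [mul_comm 2 m, pow_mul]
          rcases hm with h3 | h3 <;> rw [h3] <;> simp
        have h5 := orderOf_dvd_of_pow_eq_one h4
        rw [hy] at h5
        have h6 : 2 * (2 * s) ∣ 2 * m := by
          have : 2 * (2 * s) = 4 * s := by ring
          rw [this]
          exact h5
        exact Nat.dvd_of_mul_dvd_mul_left (by norm_num) h6

/-- The element of order `2p`. -/
theorem lower_tp_sp (h2 : (2 : F) ≠ 0) (hn : 2 ≤ n) : ∃ g : Cfsg.PSp n F, orderOf g = 2 * p := by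
  have hpp : p.Prime := hp.out
  have hp2 : p ≠ 2 := char_ne_two p h2
  have hdim : finrank F (Dual F) = 2 * 1 := by
    rw [Lib.SLn.PrimeGraph.finrank_dual]
  have hS : (-1 : Dual F) ≠ 1 := by
    intro h3
    have h4 := congrArg QuadraticAlgebra.re h3
    have h5 : (-1 : F) = 1 := by
      simpa [one_re'] using h4
    apply h2
    linear_combination -h5
  refine exists_psp_neg h2 (formAlg_dual (F := F)) (t := 1) (by omega) hdim hS u1 u1_sigma (hpp.odd_of_ne_two hp2) ?_ ?_
  · apply Lib.SLn.PrimeGraph.u1_pow_eq_one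
    exact CharP.cast_eq_zero F p
  · intro m hm
    exact (CharP.cast_eq_zero_iff F p m).mp (u1_pow_cases hm)

end lower

end Cfsg.Agent.Lib.PGBC.Sp
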