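import Cfsg.Agent.Lib.PGBC.Poly

/-!
# Upper bounds for the prime graph, on the level of matrices with self-reciprocal characteristic polynomial
-/

set_option autoImplicit false
set_option linter.unusedSectionVars false
set_option linter.unusedVariables false
set_option linter.style.haveILetI false

namespace Cfsg.Agent.Lib.PGBC.Upper

open Polynomial Module
open Cfsg.Agent.Lib.SpSpec.Recip Cfsg.Agent.Lib.SpSpec.Graph Cfsg.Agent.Lib.PGBC.Poly

variable {F : Type*} [Field F]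

section aux

variable {π : F[X]}

theorem root_pow_of_dvd (hπ : Irreducible π) {M : ℕ} (h : π ∣ X ^ M - 1) :
    haveI : Fact (Irreducible π) := ⟨hπ⟩
    (AdjoinRoot.root π) ^ M = 1 := by
  haveI : Fact (Irreducible π) := ⟨hπ⟩
  have := AdjoinRoot.mk_eq_zero.mpr h
  rw [map_sub, map_pow, AdjoinRoot.mk_X, map_one] at this
  exact sub_eq_zero.mp this

theorem dvd_M (hπ : Irreducible π) {M j a : ℕ} (h : π ∣ X ^ M - 1)
    (hv : haveI : Fact (Irreducible π) := ⟨hπ⟩
      orderOf ((AdjoinRoot.root π) ^ j) = a) : a ∣ M := by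
  haveI : Fact (Irreducible π) := ⟨hπ⟩
  rw [← hv]
  apply orderOf_dvd_of_pow_eq_one
  rw [← pow_mul, mul_comm, pow_mul, root_pow_of_dvd hπ h, one_pow]

theorem not_dvd_sq (hπ : Irreducible π) {j a : ℕ}
    (hv : haveI : Fact (Irreducible π) := ⟨hπ⟩
      orderOf ((AdjoinRoot.root π) ^ j) = a) (ha : ¬ a ∣ 2) : ¬ π ∣ X ^ 2 - 1 := by
  haveI : Fact (Irreducible π) := ⟨hπ⟩
  intro h
  apply ha
  rw [← hv]
  apply orderOf_dvd_of_pow_eq_one
  rw [← pow_mul, mul_comm, pow_mul, root_pow_of_dvd hπ h, one_pow]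

theorem not_dvd_two_of_prime {r : ℕ} (hr : r.Prime) (hr2 : r ≠ 2) : ¬ r ∣ 2 := fun h =>
  hr2 ((Nat.prime_dvd_prime_iff_eq hr Nat.prime_two).mp h)

/-- the geometric sums of two different primes are coprime -/
theorem isCoprime_geom' {r s : ℕ} (hr : r.Prime) (hs : s.Prime) (hrs : r ≠ s) (hrF : (r : F) ≠ 0) :
    IsCoprime (∑ i ∈ Finset.range r, (Polynomial.X : F[X]) ^ i)
      (∑ i ∈ Finset.range s, (Polynomial.X : F[X]) ^ i) := by
  have h0 : (∑ i ∈ Finset.range r, (Polynomial.X : F[X]) ^ i) ≠ 0 := by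
    intro h
    have h1 := mul_geom_sum (Polynomial.X : F[X]) r
    rw [h, mul_zero] at h1
    have h2 := X_pow_sub_C_ne_zero hr.pos (1 : F)
    rw [C_1] at h2
    exact h2 h1.symm
  apply isCoprime_of_irreducible_dvd (fun h => h0 h.1)
  intro z hz h1 h2
  haveI : Fact (Irreducible z) := ⟨hz⟩
  set w := AdjoinRoot.root z with hw
  have e1 : ∑ i ∈ Finset.range r, w ^ i = 0 := by
    have := AdjoinRoot.mk_eq_zero.mpr h1
    rw [map_sum] at this
    simpa [map_pow, hw] using this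
  have e2 : ∑ i ∈ Finset.range s, w ^ i = 0 := by
    have := AdjoinRoot.mk_eq_zero.mpr h2
    rw [map_sum] at this
    simpa [map_pow, hw] using this
  have e3 : w ^ r = 1 := by
    have := mul_geom_sum w r
    rw [e1, mul_zero] at this
    exact sub_eq_zero.mp this.symm
  have e4 : w ^ s = 1 := by
    have := mul_geom_sum w s
    rw [e2, mul_zero] at this
    exact sub_eq_zero.mp this.symm
  have e5 : w ^ Nat.gcd r s = 1 := pow_gcd_eq_one.mpr ⟨e3, e4⟩
  rw [((Nat.coprime_primes hr hs).mpr hrs).gcd_eq_one, pow_one] at e5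
  rw [e5] at e1
  simp only [one_pow, Finset.sum_const, Finset.card_range, nsmul_eq_mul, mul_one] at e1
  apply hrF
  apply (algebraMap F (AdjoinRoot z)).injective
  rw [map_natCast, e1, map_zero]

/-- a root of unity gives a divisor of the geometric sum -/
theorem dvd_geom' {π : F[X]} (hπ : Irreducible π) {r : ℕ}
    (h1 : haveI : Fact (Irreducible π) := ⟨hπ⟩
      (AdjoinRoot.root π) ^ r = 1)
    (h2 : haveI : Fact (Irreducible π) := ⟨hπ⟩
      AdjoinRoot.root π ≠ 1) :
    π ∣ ∑ i ∈ Finset.range r, (Polynomial.X : F[X]) ^ i := by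
  haveI : Fact (Irreducible π) := ⟨hπ⟩
  rw [← AdjoinRoot.mk_eq_zero, map_sum]
  simp only [map_pow, AdjoinRoot.mk_X]
  have h3 := mul_geom_sum (AdjoinRoot.root π) r
  rw [h1, sub_self] at h3
  exact (mul_eq_zero.mp h3).resolve_left (sub_ne_zero.mpr h2)

end aux

variable [Fintype F] (p : ℕ) [Fact p.Prime] [CharP F p]
variable {ι : Type*} [Fintype ι] [DecidableEq ι]

theorem _root_.Cfsg.Agent.Lib.PGBC.Poly.Atom.tor {π χ G : F[X]} {d M a : ℕ} (h : Atom π χ G d M) (ha : a ∣ M) :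
    Tor (Fintype.card F) a d := by
  rcases h.M_eq with e | e
  · left
    rwa [← e]
  · right
    rwa [← e]

theorem _root_.Cfsg.Agent.Lib.PGBC.Poly.Atom.two_mul_le {π G : F[X]} {A : Matrix ι ι F} {d M : ℕ} (h : Atom π A.charpoly G d M) :
    2 * d ≤ Fintype.card ι := by
  have h1 := natDegree_le_of_dvd h.dvd (Matrix.charpoly_monic A).ne_zero
  rw [h.deg, Matrix.charpoly_natDegree_eq_dim] at h1
  exact h1

theorem _root_.Cfsg.Agent.Lib.PGBC.Poly.Atom.pi_dvdM {π χ G : F[X]} {d M : ℕ} (h : Atom π χ G d M) : π ∣ X ^ M - 1 :=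
  h.pi_dvd.trans h.dvdM

include p in
/-- Two odd primes. -/
theorem upper_oo (A : Matrix ι ι F) (hχ : Rec A.charpoly) {n : ℕ} (hN : Fintype.card ι ≤ 2 * n + 1) {r s : ℕ}
    (hr : r.Prime) (hs : s.Prime) (hr2 : r ≠ 2) (hs2 : s ≠ 2) (hrF : (r : F) ≠ 0) (hsF : (s : F) ≠ 0) (hrs : r ≠ s)
    (hA : A ^ (r * s) = 1) (hAr : A ^ r ≠ 1) (hAs : A ^ s ≠ 1) : CritOO (Fintype.card F) n r s := by
  have hcop : Nat.Coprime r s := (Nat.coprime_primes hr hs).mpr hrs
  haveI : Fact r.Prime := ⟨hr⟩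
  haveI : Fact s.Prime := ⟨hs⟩
  obtain ⟨π₁, hm₁, hπ₁, hπ₁χ, hπ₁H⟩ := exists_factor A (a := s) (b := r) (by rw [mul_comm]; exact hA) hAs
  obtain ⟨π₂, hm₂, hπ₂, hπ₂χ, hπ₂H⟩ := exists_factor A (a := r) (b := s) hA hAr
  haveI : Fact (Irreducible π₁) := ⟨hπ₁⟩
  haveI : Fact (Irreducible π₂) := ⟨hπ₂⟩
  have hv₁ := order_root hπ₁ hr hrF hπ₁H
  have hv₂ := order_root hπ₂ hs hsF hπ₂H
  obtain ⟨G₁, d₁, M₁, hat₁⟩ := exists_atom p hχ hπ₁ hm₁ hπ₁χ (not_dvd_sq hπ₁ hv₁ (not_dvd_two_of_prime hr hr2))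
  obtain ⟨G₂, d₂, M₂, hat₂⟩ := exists_atom p hχ hπ₂ hm₂ hπ₂χ (not_dvd_sq hπ₂ hv₂ (not_dvd_two_of_prime hs hs2))
  have h1 : r ∣ M₁ := dvd_M hπ₁ hat₁.pi_dvdM hv₁
  have h2 : s ∣ M₂ := dvd_M hπ₂ hat₂.pi_dvdM hv₂
  have hle₁ := hat₁.two_mul_le
  have hle₂ := hat₂.two_mul_le
  by_cases hθ₁ : (AdjoinRoot.root π₁) ^ r = 1
  · by_cases hθ₂ : (AdjoinRoot.root π₂) ^ s = 1
    · left
      refine ⟨d₁, d₂, hat₁.pos, hat₂.pos, ?_, hat₁.tor h1, hat₂.tor h2⟩
      have hne₁ : AdjoinRoot.root π₁ ≠ 1 := by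
        intro h
        rw [h, one_pow, orderOf_one] at hv₁
        exact hr.one_lt.ne hv₁
      have hne₂ : AdjoinRoot.root π₂ ≠ 1 := by
        intro h
        rw [h, one_pow, orderOf_one] at hv₂
        exact hs.one_lt.ne hv₂
      have hD₁ := dvd_geom' hπ₁ hθ₁ hne₁
      have hD₂ := dvd_geom' hπ₂ hθ₂ hne₂
      have hr₁ : RecD (∑ i ∈ Finset.range r, (X : F[X]) ^ i) := by
        have := recD_geom (F := F) (a := 1) (b := r) le_rfl hr.pos
        simpa using this
      have hr₂ : RecD (∑ i ∈ Finset.range s, (X : F[X]) ^ i) := by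
        have := recD_geom (F := F) (a := 1) (b := s) le_rfl hs.pos
        simpa using this
      have hG₁ := hat₁.univ _ hr₁ hD₁
      have hG₂ := hat₂.univ _ hr₂ hD₂
      have hcopG : IsCoprime G₁ G₂ :=
        IsCoprime.of_isCoprime_of_dvd_left (IsCoprime.of_isCoprime_of_dvd_right
          (isCoprime_geom' hr hs hrs hrF) hG₂) hG₁
      have h3 := hcopG.mul_dvd hat₁.dvd hat₂.dvd
      have h4 := natDegree_le_of_dvd h3 (Matrix.charpoly_monic _).ne_zero
      rw [hat₁.monic.natDegree_mul hat₂.monic, hat₁.deg, hat₂.deg, Matrix.charpoly_natDegree_eq_dim] at h4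
      omega
    · right
      have hv₃ : orderOf ((AdjoinRoot.root π₂) ^ s) = r := by
        apply orderOf_eq_prime _ hθ₂
        rw [← pow_mul, mul_comm, pow_mul, ← hv₂, pow_orderOf_eq_one]
      have h3 : r ∣ M₂ := dvd_M hπ₂ hat₂.pi_dvdM hv₃
      exact ⟨d₂, hat₂.pos, by omega, hat₂.tor (hcop.mul_dvd_of_dvd_of_dvd h3 h2)⟩
  · right
    have hv₃ : orderOf ((AdjoinRoot.root π₁) ^ r) = s := by
      apply orderOf_eq_prime _ hθ₁
      rw [← pow_mul, mul_comm, pow_mul, ← hv₁, pow_orderOf_eq_one]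
    have h3 : s ∣ M₁ := dvd_M hπ₁ hat₁.pi_dvdM hv₃
    exact ⟨d₁, hat₁.pos, by omega, hat₁.tor (hcop.mul_dvd_of_dvd_of_dvd h1 h3)⟩

/-- An atom of top degree determines the characteristic polynomial up to a linear factor. -/
theorem top_factor {π G : F[X]} {A : Matrix ι ι F} {n M : ℕ} (hχ : Rec A.charpoly) (h : Atom π A.charpoly G n M)
    (hN : Fintype.card ι = 2 * n ∨ Fintype.card ι = 2 * n + 1) :
    (Fintype.card ι = 2 * n ∧ A.charpoly = G) ∨
      (Fintype.card ι = 2 * n + 1 ∧ ∃ c : F, c * c = 1 ∧ A.charpoly = G * (X - C c)) := by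
  rcases hN with hN | hN
  · left
    refine ⟨hN, ?_⟩
    apply eq_of_monic_of_dvd_of_natDegree_le h.monic (Matrix.charpoly_monic A) h.dvd _
    rw [h.deg, Matrix.charpoly_natDegree_eq_dim, hN]
  · right
    refine ⟨hN, ?_⟩
    obtain ⟨f, hf⟩ := h.dvd
    have hfm : f.Monic := h.monic.of_mul_monic_left (hf ▸ Matrix.charpoly_monic A)
    have hdeg : f.natDegree = 1 := by
      have h1 := congrArg natDegree hf
      rw [h.monic.natDegree_mul hfm, h.deg, Matrix.charpoly_natDegree_eq_dim, hN] at h1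
      omega
    have hfe := hfm.eq_X_add_C hdeg
    set b := f.coeff 0 with hb
    have hb0 : b ≠ 0 := by
      intro h0
      apply hχ.1
      rw [hf, mul_coeff_zero, ← hb, h0, mul_zero]
    obtain ⟨c₁, hc₁, h₁⟩ := hχ.2
    obtain ⟨c₂, hc₂, h₂⟩ := h.recG
    have hG0 : G ≠ 0 := h.monic.ne_zero
    have h3 : f = C (c₁ * c₂⁻¹) * f.reverse := by
      apply mul_left_cancel₀ hG0
      have h4 : G.reverse = C c₂⁻¹ * G := by
        conv_rhs => rw [h₂]
        rw [← mul_assoc, ← C_mul, inv_mul_cancel₀ hc₂, C_1, one_mul]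
      calc G * f = A.charpoly := hf.symm
        _ = C c₁ * A.charpoly.reverse := h₁
        _ = C c₁ * (G.reverse * f.reverse) := by rw [hf, reverse_mul_of_domain]
        _ = C c₁ * (C c₂⁻¹ * G * f.reverse) := by rw [h4]
        _ = G * (C (c₁ * c₂⁻¹) * f.reverse) := by rw [C_mul]; ring
    have hrev : f.reverse = 1 + C b * X := by
      have h5 := Lib.SUSpec.Dag.reverse_X_pow_sub_C (F := F) (M := 1) le_rfl (-b)
      have h6 : (X ^ 1 - C (-b) : F[X]) = f := by
        rw [hfe]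
        simp
      rw [h6] at h5
      rw [h5]
      simp
    rw [hrev] at h3
    set e := c₁ * c₂⁻¹ with he
    have h9 : (X + C b : F[X]) = C e + C (e * b) * X := by
      have h10 : f = C e + C (e * b) * X := by
        refine h3.trans ?_
        have h11 : (C (e * b) : F[X]) = C e * C b := C_mul
        rw [h11]
        ring
      rw [← hfe]
      exact h10
    have h7 : b = e := by
      have := congrArg (fun g => coeff g 0) h9
      simpa [coeff_C_mul] using this
    have h8 : 1 = e * b := by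
      have := congrArg (fun g => coeff g 1) h9
      simpa [coeff_C_mul, coeff_C_succ] using this
    refine ⟨-b, ?_, ?_⟩
    · rw [neg_mul_neg]
      rw [h8, ← h7]
    · rw [hf, hfe]
      simp

include p in
/-- An odd prime and the characteristic. -/
theorem upper_op (hp2 : p ≠ 2) (A : Matrix ι ι F) (hχ : Rec A.charpoly) {n : ℕ} (hn : 1 ≤ n)
    (hN : Fintype.card ι = 2 * n ∨ Fintype.card ι = 2 * n + 1) {r : ℕ}
    (hr : r.Prime) (hr2 : r ≠ 2) (hrF : (r : F) ≠ 0)
    (hA : A ^ (p * r) = 1) (hAp : A ^ p ≠ 1) (hAr : A ^ r ≠ 1) : CritOP (Fintype.card F) n r := by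
  have hpp : p.Prime := Fact.out
  obtain ⟨π, hm, hπ, hπχ, hπH⟩ := exists_factor A (a := p) (b := r) hA hAp
  haveI : Fact (Irreducible π) := ⟨hπ⟩
  have hv := order_root hπ hr hrF hπH
  obtain ⟨G, d, M, hat⟩ := exists_atom p hχ hπ hm hπχ (not_dvd_sq hπ hv (not_dvd_two_of_prime hr hr2))
  have h1 : r ∣ M := dvd_M hπ hat.pi_dvdM hv
  have hle := hat.two_mul_le
  by_cases hd : d + 1 ≤ n
  · exact ⟨d, hat.pos, hd, hat.tor h1⟩
  exfalso
  have hdn : d = n := by omega
  subst hdn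
  have hGD : G ∣ ∑ i ∈ Finset.range r, (X ^ p : F[X]) ^ i := hat.univ _ (recD_geom hpp.pos hr.pos) hπH
  have hM2 : G ∣ X ^ (2 * M) - 1 := by
    refine hat.dvdM.trans ?_
    rw [mul_comm, pow_mul]
    have := sub_dvd_pow_sub_pow (X ^ M : F[X]) 1 2
    simpa using this
  have hfin : A.charpoly ∣ X ^ (2 * M) - 1 := by
    rcases top_factor hχ hat hN with ⟨-, h⟩ | ⟨-, c, hc, h⟩
    · rw [h]
      exact hM2
    · rw [h]
      have hcop : IsCoprime G (X - C c) := by
        apply IsCoprime.symm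
        rw [(irreducible_X_sub_C c).coprime_iff_not_dvd]
        intro h3
        have h4 := h3.trans hGD
        rw [dvd_iff_isRoot, IsRoot, eval_finsetSum] at h4
        have hpodd : Odd p := hpp.odd_of_ne_two hp2
        have hcp : c ^ p = c := by
          obtain ⟨k, hk⟩ := hpodd
          rw [hk, pow_succ, pow_mul, pow_two, hc, one_pow, one_mul]
        simp only [eval_pow, eval_X, hcp] at h4
        rcases mul_self_eq_one_iff.mp hc with rfl | rfl
        · simp only [one_pow, Finset.sum_const, Finset.card_range, nsmul_eq_mul, mul_one] at h4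
          exact hrF h4
        · rw [neg_one_geom_sum, if_neg (Nat.not_even_iff_odd.mpr (hr.odd_of_ne_two hr2))] at h4
          exact one_ne_zero h4
      apply hcop.mul_dvd hM2
      have h5 : (X - C c : F[X]) ∣ X ^ 2 - 1 := by
        refine ⟨X + C c, ?_⟩
        have : (C c * C c : F[X]) = 1 := by rw [← C_mul, hc, C_1]
        linear_combination this
      refine h5.trans ?_
      rw [pow_mul]
      have := sub_dvd_pow_sub_pow (X ^ 2 : F[X]) 1 M
      simpa using this
  have hA2 := pow_eq_one_of_dvd A hfin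
  have hnp : ¬ p ∣ 2 * M := by
    intro h
    rcases hpp.dvd_mul.mp h with h | h
    · exact hp2 ((Nat.prime_dvd_prime_iff_eq hpp Nat.prime_two).mp h)
    · rcases hat.M_eq with e | e
      · rw [e] at h
        exact Cfsg.Agent.Lib.SpSpec.FormAlg.not_dvd_card_pow_sub_one (F := F) p (by omega) h
      · rw [e] at h
        exact Cfsg.Agent.Lib.SpSpec.FormAlg.not_dvd_card_pow_add_one (F := F) p (by omega) h
  have hg : A ^ Nat.gcd (2 * M) (p * r) = 1 := pow_gcd_eq_one.mpr ⟨hA2, hA⟩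
  have hg2 : Nat.gcd (2 * M) (p * r) ∣ r := by
    have hcop : Nat.Coprime p (2 * M) := (hpp.coprime_iff_not_dvd).mpr hnp
    have := hcop.gcd_mul_left_cancel_right r
    rw [this]
    exact Nat.gcd_dvd_right _ _
  obtain ⟨k, hk⟩ := hg2
  apply hAr
  rw [hk, pow_mul, hg, one_pow]

include p in
/-- The prime two and an odd prime, symplectic case. -/
theorem upper_to_sp (hF2 : (2 : F) ≠ 0) (A : Matrix ι ι F) (hχ : Rec A.charpoly) {n : ℕ}
    (hN : Fintype.card ι = 2 * n) {s : ℕ} (hs : s.Prime) (hs2 : s ≠ 2) (hsF : (s : F) ≠ 0)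
    (hpow : A ^ (2 * s) = 1 ∨ A ^ (2 * s) = -1)
    (hne : ∀ j, A ^ j = 1 ∨ A ^ j = -1 → 2 * s ∣ j) : CritTO (Fintype.card F) n s := by
  haveI : Fact s.Prime := ⟨hs⟩
  have hsodd : Odd s := hs.odd_of_ne_two hs2
  have hs3 : 3 ≤ s := by
    have := hs.two_le
    omega
  have hA4 : A ^ (4 * s) = 1 := by
    have : (4 * s) = 2 * s * 2 := by ring
    rw [this, pow_mul]
    rcases hpow with h | h <;> rw [h] <;> simp
  have hA41 : A ^ 4 ≠ 1 := by
    intro h
    have := hne 4 (Or.inl h)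
    have h2 := Nat.le_of_dvd (by norm_num) this
    omega
  obtain ⟨π, hm, hπ, hπχ, hπH⟩ := exists_factor A (a := 4) (b := s) hA4 hA41
  haveI : Fact (Irreducible π) := ⟨hπ⟩
  have hv := order_root hπ hs hsF hπH
  have hns : ¬ π ∣ X ^ 2 - 1 := by
    intro h
    have h1 := root_pow_of_dvd hπ h
    have h2 : (AdjoinRoot.root π) ^ 4 = 1 := by
      have : (4 : ℕ) = 2 * 2 := by norm_num
      rw [this, pow_mul, h1, one_pow]
    rw [h2, orderOf_one] at hv
    exact hs.one_lt.ne hv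
  obtain ⟨G, d, M, hat⟩ := exists_atom p hχ hπ hm hπχ hns
  have h1 : s ∣ M := dvd_M hπ hat.pi_dvdM hv
  have hle := hat.two_mul_le
  by_cases hd : d + 1 ≤ n
  · exact Or.inl ⟨d, hat.pos, hd, hat.tor h1⟩
  have hdn : d = n := by omega
  subst hdn
  right
  have hχG : A.charpoly = G := by
    rcases top_factor hχ hat (Or.inl hN) with ⟨-, h⟩ | ⟨h, -⟩
    · exact h
    · omega
  have hnotS : ¬ (π ∣ X ^ s - 1) ∧ ¬ (π ∣ X ^ s + 1) := by
    constructor
    · intro h
      have h2 := hat.univ _ (recD_X_pow_sub_one hs.pos) h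
      rw [← hχG] at h2
      have h3 := hne s (Or.inl (pow_eq_one_of_dvd A h2))
      have h4 := Nat.le_of_dvd hs.pos h3
      omega
    · intro h
      have h2 := hat.univ _ (recD_X_pow_add_one hs.pos) h
      rw [← hχG] at h2
      have h3 := hne s (Or.inr (pow_eq_neg_one_of_dvd A h2))
      have h4 := Nat.le_of_dvd hs.pos h3
      omega
  rcases hpow with h | h
  · exfalso
    have h2 : π ∣ X ^ (2 * s) - 1 := by
      apply dvd_of_annih A hπ hπχ
      rw [map_sub, map_pow, aeval_X, map_one, h, sub_self]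
    have h3 : (X ^ (2 * s) - 1 : F[X]) = (X ^ s - 1) * (X ^ s + 1) := by
      rw [two_mul, pow_add]
      ring
    rw [h3] at h2
    rcases hπ.prime.dvd_or_dvd h2 with h4 | h4
    · exact hnotS.1 h4
    · exact hnotS.2 h4
  · have h2 : π ∣ X ^ (2 * s) + 1 := by
      apply dvd_of_annih A hπ hπχ
      rw [map_add, map_pow, aeval_X, map_one, h, neg_add_cancel]
    set θ := AdjoinRoot.root π with hθ
    have h3 : θ ^ (2 * s) = -1 := by
      have := AdjoinRoot.mk_eq_zero.mpr h2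
      rw [map_add, map_pow, AdjoinRoot.mk_X, map_one] at this
      exact eq_neg_of_add_eq_zero_left this
    have h4 : θ ^ (4 * s) = 1 := by
      have : (4 * s) = 2 * s * 2 := by ring
      rw [this, pow_mul, h3]
      simp
    have h5 : θ ^ M = 1 := root_pow_of_dvd hπ hat.pi_dvdM
    have h6 : θ ^ Nat.gcd M (4 * s) = 1 := pow_gcd_eq_one.mpr ⟨h5, h4⟩
    have h4M : 4 ∣ M := by
      by_contra hn4
      have hg : Nat.gcd M (4 * s) ∣ 2 * s := by
        have hc : Nat.Coprime 4 s := by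
          have : Nat.Coprime 2 s := Nat.coprime_two_left.mpr hsodd
          exact Nat.Coprime.pow_left 2 this
        have e1 : Nat.gcd M (4 * s) ∣ Nat.gcd M 4 * Nat.gcd M s := by
          rw [hc.gcd_mul M]
        have e2 : Nat.gcd M 4 ∣ 2 := by
          have e3 : Nat.gcd M 4 ∣ 4 := Nat.gcd_dvd_right _ _
          have e4 : Nat.gcd M 4 ≠ 4 := by
            intro e5
            apply hn4
            rw [← e5]
            exact Nat.gcd_dvd_left _ _
          have e6 := Nat.le_of_dvd (by norm_num) e3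
          interval_cases h7 : Nat.gcd M 4
          · simp at e3
          · norm_num
          · norm_num
          · omega
          · omega
        have e3 : Nat.gcd M s ∣ s := Nat.gcd_dvd_right _ _
        exact e1.trans (Nat.mul_dvd_mul e2 e3)
      obtain ⟨k, hk⟩ := hg
      have h7 : θ ^ (2 * s) = 1 := by
        rw [hk, pow_mul, h6, one_pow]
      rw [h3] at h7
      have h8 : (2 : AdjoinRoot π) = 0 := by
        linear_combination -h7
      apply hF2
      apply (algebraMap F (AdjoinRoot π)).injective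
      rw [map_ofNat, map_zero, h8]
    have hc : Nat.Coprime 4 s := by
      have : Nat.Coprime 2 s := Nat.coprime_two_left.mpr hsodd
      exact Nat.Coprime.pow_left 2 this
    exact hat.tor (hc.mul_dvd_of_dvd_of_dvd h4M h1)

include p in
/-- The polynomial data for the prime two and an odd prime, orthogonal case. -/
theorem upper_to_om (A : Matrix ι ι F) (hχ : Rec A.charpoly) {n : ℕ}
    (hN : Fintype.card ι = 2 * n + 1) {s : ℕ} (hs : s.Prime) (hs2 : s ≠ 2) (hsF : (s : F) ≠ 0)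
    (hA : A ^ (2 * s) = 1) (hAs : A ^ s ≠ 1) (hA2 : A ^ 2 ≠ 1) (hdet : ¬ IsUnit (A - 1)) :
    (∃ d, 1 ≤ d ∧ d + 1 ≤ n ∧ Tor (Fintype.card F) s d) ∨
      ((A ^ s + 1) * (A - 1) = 0 ∧ (∑ i ∈ Finset.range s, (A ^ 2) ^ i) * (A - 1) = 0 ∧
        A.charpoly.rootMultiplicity 1 = 1 ∧ 1 ≤ n ∧
        ∃ M, (M = Fintype.card F ^ n - 1 ∨ M = Fintype.card F ^ n + 1) ∧ s ∣ M) := by
  haveI : Fact s.Prime := ⟨hs⟩
  obtain ⟨π, hm, hπ, hπχ, hπH⟩ := exists_factor A (a := 2) (b := s) hA hA2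
  haveI : Fact (Irreducible π) := ⟨hπ⟩
  have hv := order_root hπ hs hsF hπH
  have hns : ¬ π ∣ X ^ 2 - 1 := by
    intro h
    have h1 := root_pow_of_dvd hπ h
    rw [h1, orderOf_one] at hv
    exact hs.one_lt.ne hv
  obtain ⟨G, d, M, hat⟩ := exists_atom p hχ hπ hm hπχ hns
  have h1 : s ∣ M := dvd_M hπ hat.pi_dvdM hv
  have hle := hat.two_mul_le
  by_cases hd : d + 1 ≤ n
  · exact Or.inl ⟨d, hat.pos, hd, hat.tor h1⟩
  have hdn : d = n := by omega
  subst hdn
  right
  have hGD : G ∣ ∑ i ∈ Finset.range s, (X ^ 2 : F[X]) ^ i := hat.univ _ (recD_geom (by norm_num) hs.pos) hπH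
  have hG1 : G.eval 1 ≠ 0 := by
    intro h0
    obtain ⟨g, hg⟩ := hGD
    have := congrArg (eval 1) hg
    rw [eval_mul, h0, zero_mul, eval_finsetSum] at this
    simp at this
    exact hsF this
  obtain ⟨c, hc, hχc⟩ : ∃ c : F, c * c = 1 ∧ A.charpoly = G * (X - C c) := by
    rcases top_factor hχ hat (Or.inr hN) with ⟨h, -⟩ | ⟨-, h⟩
    · omega
    · exact h
  have hc1 : c = 1 := by
    by_contra hc1
    apply hdet
    have h3 : A.charpoly.eval 1 ≠ 0 := by
      rw [hχc, eval_mul]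
      simp only [eval_sub, eval_X, eval_C]
      exact mul_ne_zero hG1 (sub_ne_zero.mpr (Ne.symm hc1))
    rw [Matrix.eval_charpoly] at h3
    have h4 : Matrix.scalar ι (1 : F) = 1 := by
      ext i j
      simp [Matrix.scalar_apply, Matrix.one_apply, Matrix.diagonal_apply]
    rw [h4] at h3
    have h5 : IsUnit (1 - A) := (Matrix.isUnit_iff_isUnit_det _).mpr (isUnit_iff_ne_zero.mpr h3)
    have h6 : A - 1 = -(1 - A) := by abel
    rw [h6]
    exact h5.neg
  subst hc1
  rw [C_1] at hχc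
  have hcopG : IsCoprime G (X - 1) := by
    apply IsCoprime.symm
    have hi := irreducible_X_sub_C (1 : F)
    rw [C_1] at hi
    rw [hi.coprime_iff_not_dvd]
    intro h3
    apply hG1
    have h4 := (dvd_iff_isRoot.mp (by simpa using h3) : IsRoot G 1)
    exact h4
  have hπnot : ¬ π ∣ X ^ s - 1 := by
    intro h
    have h2 := hat.univ _ (recD_X_pow_sub_one hs.pos) h
    have h3 : (X - 1 : F[X]) ∣ X ^ s - 1 := by
      have := sub_dvd_pow_sub_pow (X : F[X]) 1 s
      simpa using this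
    have h4 := hcopG.mul_dvd h2 h3
    rw [← hχc] at h4
    exact hAs (pow_eq_one_of_dvd A h4)
  have hπs : π ∣ X ^ s + 1 := by
    have h2 : π ∣ (X ^ 2 - 1) * ∑ i ∈ Finset.range s, (X ^ 2 : F[X]) ^ i := hπH.mul_left _
    rw [mul_geom_sum] at h2
    have h3 : ((X ^ 2 : F[X]) ^ s - 1) = (X ^ s - 1) * (X ^ s + 1) := by
      rw [← pow_mul, two_mul, pow_add]
      ring
    rw [h3] at h2
    exact (hπ.prime.dvd_or_dvd h2).resolve_left hπnot
  have hGs := hat.univ _ (recD_X_pow_add_one hs.pos) hπs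
  refine ⟨?_, ?_, ?_, hat.pos, M, hat.M_eq, h1⟩
  · have h2 : A.charpoly ∣ (X ^ s + 1) * (X - 1) := by
      rw [hχc]
      exact mul_dvd_mul_right hGs _
    have h3 := aeval_eq_zero_of_dvd A h2
    simpa using h3
  · have h2 : A.charpoly ∣ (∑ i ∈ Finset.range s, (X ^ 2 : F[X]) ^ i) * (X - 1) := by
      rw [hχc]
      exact mul_dvd_mul_right hGD _
    have h3 := aeval_eq_zero_of_dvd A h2
    simpa [map_sum] using h3
  · have hne0 : A.charpoly ≠ 0 := (Matrix.charpoly_monic A).ne_zero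
    rw [hχc, mul_comm]
    rw [hχc, mul_comm] at hne0
    rw [rootMultiplicity_mul hne0]
    have e1 : rootMultiplicity (1 : F) (X - 1 : F[X]) = 1 := by
      have := rootMultiplicity_X_sub_C_self (R := F) (x := 1)
      rwa [C_1] at this
    have e2 : rootMultiplicity (1 : F) G = 0 := rootMultiplicity_eq_zero hG1
    rw [e1, e2]

end Cfsg.Agent.Lib.PGBC.Upper
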